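import Cfsg.Agent.Char.Kernel
import Cfsg.Agent.Char.Classes
import Cfsg.Agent.BG.B12
import Cfsg.Agent.Clifford.Frob

/-!
Gagola characters: irreducible characters vanishing on all but two classes.
-/

set_option autoImplicit false
set_option linter.unusedSectionVars false

namespace CF.Char

open Cfsg Subgroup
open scoped ComplexConjugate

variable {G : Type*} [Group G] [Finite G] {χ : IrrCharacter G} {N : Subgroup G} {p : ℕ} {x y g : G}

/-- `χ` vanishes exactly off `N`, and all other irreducible characters contain `N` in the kernel -/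
structure Gag (χ : IrrCharacter G) (N : Subgroup G) : Prop where
  mem : ∀ g, g ∈ N ↔ (χ : G → ℂ) g ≠ 0
  ne : N ≠ ⊥
  cnj : ∀ x ∈ N, ∀ y ∈ N, x ≠ 1 → y ≠ 1 → IsConj x y
  ker : ∀ ψ : IrrCharacter G, ψ ≠ χ → N ≤ charKer (ψ : G → ℂ)

theorem exists_gag (hG : 2 < Nat.card G)
    (hχ : Nat.card {C : ConjClasses G // ∃ g ∈ C.carrier, (χ : G → ℂ) g ≠ 0} = 2) :
    ∃ N, Gag χ N := by
  classical
  have := Fintype.ofFinite G
  obtain ⟨⟨C, x, hx, x0⟩, h1, h2⟩ := (Nat.card_eq_two_iff' (⟨ConjClasses.mk 1, 1,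
    ConjClasses.mem_carrier_mk, irr_one_ne_zero χ.2⟩ : {C : ConjClasses G // ∃ g ∈ C.carrier,
      (χ : G → ℂ) g ≠ 0})).1 hχ
  obtain rfl := ConjClasses.mem_carrier_iff_mk_eq.1 hx
  have x1 : x ≠ 1 := fun e => h1 (by simp [e])
  have s : ∀ g, (χ : G → ℂ) g ≠ 0 → g ≠ 1 → IsConj x g := fun g h e =>
    ConjClasses.mk_eq_mk_iff_isConj.1 (congrArg Subtype.val (h2 ⟨_, g, ConjClasses.mem_carrier_mk, h⟩
      fun a => e (isConj_one_left.1 (ConjClasses.mk_eq_mk_iff_isConj.1 (congrArg Subtype.val a))))).symm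
  have sum : ∀ f : G → ℂ, IsClassFunction G f → ∑ g, (χ : G → ℂ) g * f g =
      χ.1 1 * f 1 + (centralizer ({x} : Set G)).index * χ.1 x * f x := fun f hf => by
    rw [← Finset.add_sum_erase _ _ (Finset.mem_univ 1), ← card_filter_isConj, mul_assoc,
      ← nsmul_eq_mul, ← Finset.sum_const, ← Finset.sum_subset (s₁ := Finset.univ.filter (IsConj x))]
    · refine congrArg _ (Finset.sum_congr rfl fun g hg => ?_)
      rw [← classFun_of_isConj hf (by simpa using hg),
        ← classFun_of_isConj (irr_isClassFunction χ.2) (by simpa using hg)]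
    · exact fun g hg => by simpa using fun e : g = 1 => x1 (isConj_one_left.1 (by simpa [e] using hg))
    · exact fun g hg n => by
        rw [show χ.1 g = 0 from by_contra fun h => n (by simpa using s g h (by simpa using hg)), zero_mul]
  have c1 : χ ≠ oneIrr G := by
    rintro rfl
    have a : ∀ g, g ≠ 1 → IsConj x g := fun g => s g (by simp)
    have b : (centralizer ({x} : Set G)).index + 1 = Nat.card G := by
      rw [← card_filter_isConj, Nat.card_eq_fintype_card, ← Finset.card_univ,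
        ← Finset.card_erase_add_one (Finset.mem_univ (1 : G))]
      congr 2
      ext g
      simpa using ⟨fun h e => x1 (by simpa [e] using h), fun h => isConj_iff.1 (a g h)⟩
    have := Nat.dvd_one.1 ((Nat.dvd_add_right dvd_rfl).1 (b ▸ index_dvd_card _))
    omega
  have e0 := sum _ (classFun_const 1)
  simp only [mul_one] at e0
  rw [sum_irr_eq_zero χ.2 fun e => c1 (Subtype.ext e), eq_comm, add_eq_zero_iff_neg_eq] at e0
  have k : ∀ ψ : IrrCharacter G, ψ ≠ χ → x ∈ charKer (ψ : G → ℂ) := fun ψ h => by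
    have := sum _ (classFun_star (irr_isClassFunction ψ.2))
    rw [← card_mul_inner, inner_irr', if_neg h.symm, mul_zero, ← e0, neg_mul, ← sub_eq_add_neg,
      ← mul_sub, eq_comm, mul_eq_zero, sub_eq_zero] at this
    exact (mem_charKer_iff (irr_isCharacter ψ.2)).2
      ((starRingEnd ℂ).injective (this.resolve_left (irr_one_ne_zero χ.2))).symm
  let N : Subgroup G := ⨅ ψ : {ψ : IrrCharacter G // ψ ≠ χ}, charKer (ψ.1 : G → ℂ)
  have hN : ∀ g, g ∈ N ↔ (χ : G → ℂ) g ≠ 0 := fun g => by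
    rw [mem_iInf]
    by_cases e : g = 1
    · simpa [e, one_mem] using irr_one_ne_zero χ.2
    refine ⟨fun h z => ?_, fun h ψ => ?_⟩
    · have a := sum_irr_one_mul_of_ne e
      have b := sum_irr_one_sq (G := G)
      rw [← Finset.add_sum_erase _ _ (Finset.mem_univ χ)] at a b
      rw [z, mul_zero, zero_add, Finset.sum_congr rfl fun ψ hψ => by
        rw [(mem_charKer_iff (irr_isCharacter ψ.2)).1 (h ⟨ψ, Finset.ne_of_mem_erase hψ⟩), ← sq]] at a
      choose d d0 hd using fun ψ : IrrCharacter G => irr_one_eq_nat ψ.2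
      simp only [hd] at a
      exact (d0 _).ne' (pow_eq_zero_iff two_ne_zero |>.1 (Finset.sum_eq_zero_iff.1
        (show ∑ ψ ∈ Finset.univ.erase χ, d ψ ^ 2 = 0 by exact_mod_cast a) (oneIrr G)
          (by simpa using c1.symm)))
    · obtain ⟨c, rfl⟩ := isConj_iff.1 (s g h e)
      exact (charKer_normal (irr_isClassFunction ψ.1.2)).conj_mem _ (k _ ψ.2) c
  exact ⟨N, hN, fun e => x1 (mem_bot.1 (e ▸ (hN x).2 x0)), fun a ha b hb a1 b1 =>
    (s a ((hN a).1 ha) a1).symm.trans (s b ((hN b).1 hb) b1), fun ψ h =>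
      iInf_le (fun ψ : {ψ : IrrCharacter G // ψ ≠ χ} => charKer (ψ.1 : G → ℂ)) ⟨ψ, h⟩⟩

theorem gag_of (hG : 2 < Nat.card G)
    (hχ : Nat.card {C : ConjClasses G // ∃ g ∈ C.carrier, (χ : G → ℂ) g ≠ 0} = 2)
    (hN : ∀ g, g ∈ N ↔ (χ : G → ℂ) g ≠ 0) : Gag χ N := by
  obtain ⟨K, h⟩ := exists_gag hG hχ
  rwa [show N = K from Subgroup.ext fun g => (hN g).trans (h.mem g).symm]

namespace Gag

variable (h : Gag χ N)
include h

theorem normal : N.Normal := ⟨fun n hn g => (h.mem _).2 (by
  rw [irr_isClassFunction χ.2]; exact (h.mem n).1 hn)⟩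

theorem zero (hg : g ∉ N) : (χ : G → ℂ) g = 0 := not_not.1 fun e => hg ((h.mem g).2 e)

/-- the Camina property -/
theorem camina (hg : g ∉ N) (hx : x ∈ N) : IsConj g (x * g) :=
  (isConj_iff_irr_eq _ _).2 fun ψ => by
    by_cases e : ψ = χ
    · rw [e, h.zero hg, h.zero fun a => hg ((N.mul_mem_cancel_left hx).1 a)]
    · exact (h.ker ψ e hx g).symm

theorem le_of_normal {K : Subgroup G} (hK : K.Normal) (ne : K ≠ ⊥) : N ≤ K := fun x hx => by
  obtain ⟨⟨g, hg⟩, g1⟩ := ne_bot_iff_exists_ne_one.1 ne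
  have t : ∀ y, IsConj g y → y ∈ K := fun y hy => by
    obtain ⟨c, rfl⟩ := isConj_iff.1 hy
    exact hK.conj_mem _ hg c
  by_cases e : g ∈ N
  · by_cases x1 : x = 1
    · exact x1 ▸ one_mem K
    · exact t _ (h.cnj g e x hx (by simpa using g1) x1)
  · exact (K.mul_mem_cancel_right hg).1 (t _ (h.camina e hx))

theorem not_le_ker : ¬ N ≤ charKer (χ : G → ℂ) := fun a => by
  obtain ⟨⟨g, hg⟩, g1⟩ := ne_bot_iff_exists_ne_one.1 h.ne
  obtain ⟨ψ, hψ, n⟩ := exists_irr_not_mem_charKer (g := g) (by simpa using g1)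
  by_cases e : (⟨ψ, hψ⟩ : IrrCharacter G) = χ
  · exact n (by simpa [← e] using a hg)
  · exact n (h.ker _ e hg)

theorem ker_eq : charKer (χ : G → ℂ) = ⊥ := by_contra fun e =>
  h.not_le_ker (h.le_of_normal (charKer_normal (irr_isClassFunction χ.2)) e)

theorem exists_prime : ∃ p : ℕ, p.Prime ∧ ∀ x ∈ N, x ^ p = 1 := by
  obtain ⟨p, hp, d⟩ := Nat.exists_prime_and_dvd (mt card_eq_one.1 h.ne)
  have := Fact.mk hp
  obtain ⟨y, hy⟩ := exists_prime_orderOf_dvd_card' p d
  refine ⟨p, hp, fun x hx => ?_⟩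
  by_cases x1 : x = 1
  · simp [x1]
  obtain ⟨c, rfl⟩ := isConj_iff.1 (h.cnj y y.2 x hx (fun e => hp.ne_one (by
    rw [← hy, orderOf_eq_one_iff]; exact Subtype.ext e)) x1)
  rw [conj_pow, ← coe_pow, ← hy, pow_orderOf_eq_one]
  simp

theorem card_cent [N.Normal] (hg : g ∉ N) : Nat.card (centralizer ({g} : Set G)) =
    Nat.card (centralizer ({(g : G ⧸ N)} : Set (G ⧸ N))) := by
  classical
  have := Fintype.ofFinite G
  have := Fintype.ofFinite (G ⧸ N)
  have a := sum_irr_filter_le_charKer N fun f : G → ℂ => ‖f g‖ ^ 2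
  rw [sum_irr_norm_sq, Finset.sum_subset (Finset.filter_subset _ _), sum_irr_norm_sq] at a
  · exact_mod_cast a
  · intro ψ _ n
    obtain rfl : ψ = χ := by_contra fun e => n (by simpa using h.ker ψ e)
    simp [h.zero hg]

theorem index_cent (hx : x ∈ N) (x1 : x ≠ 1) : (centralizer ({x} : Set G)).index + 1 = Nat.card N := by
  classical
  have := Fintype.ofFinite G
  rw [← card_filter_isConj, Nat.card_eq_fintype_card, Fintype.card_subtype,
    ← Finset.card_erase_add_one (a := 1) (s := Finset.univ.filter (· ∈ N)) (by simp)]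
  congr 2
  ext g
  simpa using ⟨fun ⟨c, e⟩ => ⟨fun a => x1 (by simpa [← e] using a), e ▸ h.normal.conj_mem _ hx c⟩,
    fun a => isConj_iff.1 (h.cnj x hx g a.2 x1 a.1)⟩

variable [Fact p.Prime] (hp : IsPGroup p N)
include hp

theorem fpf (hy : ¬ p ∣ orderOf y) (y1 : y ≠ 1) : N ⊓ centralizer {y} = ⊥ := by
  have t : ∀ x ∈ N, x ^ orderOf y = 1 → x = 1 := fun x hx e => by
    obtain ⟨k, hk⟩ := hp ⟨x, hx⟩
    exact orderOf_eq_one_iff.1 (Nat.eq_one_of_dvd_coprimes (((Nat.Prime.coprime_iff_not_dvd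
      Fact.out).2 hy).pow_left k) (orderOf_dvd_of_pow_eq_one (congrArg Subtype.val hk))
        (orderOf_dvd_of_pow_eq_one e))
  refine eq_bot_iff.2 fun x hx => t x hx.1 ?_
  obtain ⟨c, e⟩ := isConj_iff.1 (h.camina (fun a => y1 (t y a (pow_orderOf_eq_one y))) hx.1)
  have := (show Commute x y from (mem_centralizer_singleton_iff.1 hx.2)).mul_pow (orderOf y)
  simpa [← e, conj_pow] using this.symm

omit h hp in
theorem isPGroup_of_prime {H : Subgroup G} (k : ∀ y ∈ H, (orderOf y).Prime → p ∣ orderOf y) :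
    IsPGroup p H := (CF.BG.piGrp_iff_isPGroup Fact.out).1 fun q hq d => by
  have := Fact.mk hq
  obtain ⟨y, hy⟩ := exists_prime_orderOf_dvd_card' q d
  rw [← orderOf_coe] at hy
  exact ((Nat.prime_dvd_prime_iff_eq Fact.out hq).1 (hy ▸ k y y.2 (hy ▸ hq))).symm

theorem isPGroup_cent (hx : x ∈ N) (x1 : x ≠ 1) : IsPGroup p (centralizer ({x} : Set G)) :=
  isPGroup_of_prime fun _ hy q => by_contra fun n => x1 (mem_bot.1 (h.fpf hp n (fun e => q.ne_one
    (orderOf_eq_one_iff.2 e)) ▸ ⟨hx, mem_centralizer_singleton_iff.2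
      (mem_centralizer_singleton_iff.1 hy).symm⟩))

theorem exists_sylow (hx : x ∈ N) (x1 : x ≠ 1) : ∃ P : Sylow p G, centralizer ({x} : Set G) = P := by
  obtain ⟨P⟩ : Nonempty (Sylow p G) := inferInstance
  have := h.normal
  obtain ⟨⟨z, hz⟩, z1⟩ := ne_bot_iff_exists_ne_one.1 (CF.BG.PiGrp.inf_cent_ne_bot
    (CF.BG.piGrp_of_isPGroup Fact.out P.2) (CF.BG.piGrp_of_isPGroup Fact.out hp)
      le_normalizer_of_normal h.ne)
  obtain ⟨c, rfl⟩ := isConj_iff.1 (h.cnj z hz.1 x hx (by simpa using z1) x1)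
  refine ⟨c • P, (c • P).3 (h.isPGroup_cent hp hx x1) ?_⟩
  rintro _ ⟨g, hg, rfl⟩
  refine mem_centralizer_singleton_iff.2 ?_
  simp [mul_assoc, ← mul_assoc g, hz.2 g hg]

theorem inertia [N.Normal] {μ : N → ℂ} (hμ : IsIrrCharacter N μ) (n : μ ≠ fun _ => 1) :
    ∃ P : Sylow p G, (Clifford.NormalEmb.sub N).inertia μ = P := by
  classical
  have := Fintype.ofFinite G
  have t : IsPGroup p ((Clifford.NormalEmb.sub N).inertia μ) :=
    isPGroup_of_prime fun _ hy q => by_contra fun a => n (Clifford.irr_eq_one_of_mem_inertia N hμ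
      (h.fpf hp a fun e => q.ne_one (orderOf_eq_one_iff.2 e)) hy)
  obtain ⟨P, hP⟩ := t.exists_le_sylow
  obtain ⟨⟨x, hx⟩, x1⟩ := ne_bot_iff_exists_ne_one.1 h.ne
  replace x1 : x ≠ 1 := by simpa using x1
  obtain ⟨Q, hQ⟩ := h.exists_sylow hp hx x1
  have a := h.index_cent hx x1
  refine ⟨P, le_antisymm hP (relIndex_eq_one.1 ?_)⟩
  have b := relIndex_mul_index hP
  have c : ((Clifford.NormalEmb.sub N).inertia μ).index + 1 ≤ Nat.card N := by
    rw [← Clifford.NormalEmb.card_image_cj, ← Finset.card_insert_of_notMem (a := fun _ => 1)]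
    · refine le_trans ?_ ((card_irr (G := N)).trans_le (Nat.card_le_card_of_surjective _
        ConjClasses.mk_surjective))
      rw [Nat.card_eq_fintype_card, ← Finset.card_univ]
      refine le_trans (Finset.card_le_card fun f hf => ?_) (Finset.card_image_le (f := Subtype.val))
      obtain rfl | ⟨g, -, rfl⟩ : f = _ ∨ ∃ g ∈ _, _ = f := by simpa only [Finset.mem_insert,
        Finset.mem_image] using hf
      · exact Finset.mem_image_of_mem _ (Finset.mem_univ (oneIrr N))
      · exact Finset.mem_image_of_mem _ (Finset.mem_univ (⟨_, Clifford.NormalEmb.cj_irr _ hμ g⟩ :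
          IrrCharacter N))
    · simp only [Finset.mem_image]
      rintro ⟨g, -, e⟩
      exact n (Clifford.NormalEmb.cj_injective _ g e)
  have d : Q.1.index = P.1.index := by
    obtain ⟨g, rfl⟩ := MulAction.exists_smul_eq G P Q
    exact index_map_equiv _ _
  have e : 0 < P.1.index := Nat.pos_of_ne_zero index_ne_zero_of_finite
  have f : 0 < ((Clifford.NormalEmb.sub N).inertia μ).relIndex P :=
    Nat.pos_of_ne_zero index_ne_zero_of_finite
  rw [hQ, d] at a
  nlinarith

theorem card_le {P : Sylow p G} {g : P.1} (hg : g.1 ∉ N) {K : Subgroup P.1}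
    (k : ∀ y, g * y * g⁻¹ * y⁻¹ ∈ K) : Nat.card N ≤ Nat.card K := by
  classical
  have := Fintype.ofFinite P.1
  have := h.normal
  have a : Nat.card (centralizer ({g} : Set P.1)) * Nat.card N ∣ Nat.card P.1 := by
    obtain ⟨i, hi⟩ := (P.2.to_subgroup (centralizer {g})).exists_card_eq
    obtain ⟨j, hj⟩ := hp.exists_card_eq
    rw [hi, hj, ← pow_add]
    refine P.pow_dvd_card_of_pow_dvd_card ?_
    rw [pow_add, ← hi, ← hj, card_eq_card_quotient_mul_card_subgroup N]
    refine mul_dvd_mul_right (.trans ?_ ((h.card_cent hg).dvd.trans (card_subgroup_dvd_card _))) _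
    rw [← card_map_of_injective P.1.subtype_injective]
    refine card_dvd_of_le ?_
    rintro _ ⟨y, hy, rfl⟩
    exact mem_centralizer_singleton_iff.2 (congrArg Subtype.val (mem_centralizer_singleton_iff.1 hy))
  rw [← card_mul_index (centralizer ({g} : Set P.1))] at a
  refine (Nat.le_of_dvd (Nat.pos_of_ne_zero index_ne_zero_of_finite)
    (Nat.dvd_of_mul_dvd_mul_left Nat.card_pos a)).trans ?_
  rw [← card_filter_isConj, Nat.card_eq_fintype_card, Fintype.card_subtype]
  refine Finset.card_le_card_of_injOn (fun y => g * y⁻¹) (fun y hy => ?_) fun a _ b _ e => by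
    simpa using e
  obtain ⟨c, rfl⟩ := isConj_iff.1 (show IsConj g y by simpa only [Finset.coe_filter, Finset.mem_univ,
    true_and, Set.mem_ofPred_eq] using hy)
  simpa [mul_assoc] using k c

theorem center_le (P : Sylow p G) : (center P.1).map P.1.subtype ≤ N := by
  rintro _ ⟨g, hg, rfl⟩
  by_contra n
  exact h.ne ((card_le_one_iff_eq_bot _).1 (by
    simpa using h.card_le hp n (K := ⊥) fun y => by simp [← mem_center_iff.1 hg y]))

theorem upper (P : Sylow p G) : ∃ i, Subgroup.upperCentralSeries P.1 i = N.subgroupOf P := by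
  have := h.normal
  have a : ∀ i, Subgroup.upperCentralSeries P.1 i ≤ N.subgroupOf P ∨
      ∃ i, Subgroup.upperCentralSeries P.1 i = N.subgroupOf P := fun i => by
    induction i with
    | zero => exact .inl bot_le
    | succ i ih =>
      refine ih.elim (fun a => by_contra fun n => ?_) .inr
      obtain ⟨g, hg, gn⟩ := SetLike.not_le_iff_exists.1 (not_or.1 n).1
      refine (not_or.1 n).2 ⟨i, eq_of_le_of_card_ge a (le_trans ?_ (h.card_le hp gn hg))⟩
      exact (Nat.card_congr (subgroupOfEquivOfLe (hp.le_sylow_of_normal P)).toEquiv).le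
  have := P.2.isNilpotent
  exact (a _).elim (fun b => ⟨_, le_antisymm b (Subgroup.upperCentralSeries_nilpotencyClass.ge.trans'
    le_top)⟩) id

theorem le_centralizer_of_normal {K : Subgroup G} [K.Normal] (k : IsPGroup p K) :
    K ≤ centralizer (N : Set G) := by
  have := h.normal
  refine le_centralizer_iff.1 (le_trans (h.le_of_normal (K := N ⊓ centralizer (K : Set G))
    inferInstance ?_) inf_le_right)
  exact CF.BG.PiGrp.inf_cent_ne_bot (CF.BG.piGrp_of_isPGroup Fact.out k)
    (CF.BG.piGrp_of_isPGroup Fact.out hp) le_normalizer_of_normal h.ne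

theorem comm : N ≤ centralizer (N : Set G) :=
  have := h.normal
  h.le_centralizer_of_normal hp hp

end Gag

end CF.Char
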