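import Cfsg.Agent.Char.Gagola
import Cfsg.Agent.Coprime.Frobenius
import Cfsg.Agent.S0200

/-!
Gagola characters: the case `N = O_p(G)`.
-/

set_option autoImplicit false
set_option linter.unusedSectionVars false

namespace CF.Char

open Cfsg Subgroup CF.Solv

variable {G : Type*} [Group G] [Finite G] {χ : IrrCharacter G} {N : Subgroup G} {p : ℕ} {x y g : G}

theorem fpf_iff_surj [hN : N.Normal] :
    N ⊓ centralizer {y} = ⊥ ↔ ∀ a ∈ N, ∃ n ∈ N, n * y * n⁻¹ = a * y := by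
  let f : N → N := fun n => ⟨n * (y * n⁻¹ * y⁻¹), mul_mem n.2 (hN.conj_mem _ (inv_mem n.2) y)⟩
  have a : N ⊓ centralizer {y} = ⊥ ↔ Function.Injective f := by
    refine ⟨fun h a b e => Subtype.ext (eq_of_inv_mul_eq_one (mem_bot.1 (h ▸ ⟨N.mul_mem (N.inv_mem a.2)
      b.2, mem_centralizer_singleton_iff.2 ?_⟩))), fun h => eq_bot_iff.2 fun a ha => congrArg
        Subtype.val (@h ⟨a, ha.1⟩ 1 (Subtype.ext ?_))⟩
    · have e : (a : G) * (y * a⁻¹ * y⁻¹) = b * (y * b⁻¹ * y⁻¹) := congrArg Subtype.val e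
      calc (a : G)⁻¹ * b * y = a⁻¹ * (b * (y * b⁻¹ * y⁻¹)) * y * b := by simp [mul_assoc]
        _ = _ := by rw [← e]; simp [mul_assoc]
    · simp [f, ← mul_assoc, mem_centralizer_singleton_iff.1 ha.2]
  rw [a, Finite.injective_iff_surjective]
  exact ⟨fun h a ha => (h ⟨a, ha⟩).elim fun n e => ⟨n, n.2, by
    rw [← show _ = a from congrArg Subtype.val e]; simp [f, mul_assoc]⟩, fun h a =>
      (h a a.2).elim fun n e => ⟨⟨n, e.1⟩, Subtype.ext (by simp [f, ← mul_assoc, e.2])⟩⟩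

namespace Gag

variable (h : Gag χ N) [Fact p.Prime] (hp : IsPGroup p N)
include h hp

theorem pow_eq_one (hx : x ∈ N) : x ^ p = 1 := by
  obtain ⟨q, hq, e⟩ := h.exists_prime
  obtain ⟨y, y1⟩ := ne_bot_iff_exists_ne_one.1 h.ne
  obtain ⟨k, hk⟩ := hp y
  have := Fact.mk hq
  rw [(Nat.prime_dvd_prime_iff_eq hq Fact.out).1 (hq.dvd_of_dvd_pow (orderOf_eq_prime
    (Subtype.ext (e y y.2)) y1 ▸ orderOf_dvd_of_pow_eq_one hk))] at e
  exact e x hx

theorem centralizer_eq : centralizer (N : Set G) = pCore p G := by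
  have := h.normal
  obtain ⟨⟨x, hx⟩, x1⟩ := ne_bot_iff_exists_ne_one.1 h.ne
  exact le_antisymm (le_pCore ((h.isPGroup_cent hp hx (by simpa using x1)).to_le (centralizer_le
    (Set.singleton_subset_iff.2 hx)))) (h.le_centralizer_of_normal hp pCore_isPGroup)

theorem mem_centralizer_of_sq (h2 : p = 2) (e : g * g = 1) : g ∈ centralizer (N : Set G) := by
  by_cases hg : g ∈ N
  · exact h.comm hp hg
  intro x hx
  obtain ⟨c, a⟩ := isConj_iff.1 (h.camina hg hx)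
  have b : x * g * (x * g) = 1 := by simp [← a, mul_assoc, ← mul_assoc g, e]
  have d : x * x = 1 := by simpa [h2, sq] using h.pow_eq_one hp hx
  rw [eq_inv_of_mul_eq_one_left b, mul_inv_rev, inv_eq_of_mul_eq_one_right e,
    inv_eq_of_mul_eq_one_right d]

theorem exists_compl (e : centralizer (N : Set G) = N) :
    ∃ H : Subgroup G, N ⊓ H = ⊥ ∧ ∀ g, ∃ n ∈ N, n⁻¹ * g ∈ H := by
  have hN := h.normal
  by_cases h2 : p = 2
  · obtain ⟨H, c⟩ := exists_right_complement'_of_coprime (N := N) (by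
      obtain ⟨k, hk⟩ := hp.exists_card_eq
      refine hk ▸ ((Nat.Prime.coprime_iff_not_dvd Fact.out).2 fun d => ?_).pow_left k
      obtain ⟨t, ht⟩ := exists_prime_orderOf_dvd_card' (G := G ⧸ N) p d
      obtain ⟨y, y1, o, i⟩ := Cfsg.Agent.S0200.result t (h2 ▸ ht) fun K _ k m => by
        have a := le_pCore k m
        rw [← h2, ← map_mk'_pCore N hp, ← h.centralizer_eq hp, e, QuotientGroup.map_mk'_self] at a
        exact (Fact.out : p.Prime).ne_one (ht ▸ orderOf_eq_one_iff.2 a)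
      obtain ⟨y, rfl⟩ := QuotientGroup.mk_surjective y
      obtain ⟨t, rfl⟩ := QuotientGroup.mk_surjective t
      have f : N ⊓ centralizer {y⁻¹} = ⊥ := eq_bot_iff.2 fun x hx => by_contra fun x1 => by
        obtain ⟨k, hk⟩ := h.isPGroup_cent hp hx.1 x1 ⟨y⁻¹, mem_centralizer_singleton_iff.2
          (mem_centralizer_singleton_iff.1 hx.2).symm⟩
        refine y1 (orderOf_eq_one_iff.1 (Nat.eq_one_of_dvd_coprimes ((Nat.coprime_two_left.2
          o).pow_left k) (orderOf_dvd_of_pow_eq_one ?_) dvd_rfl))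
        rw [← h2, ← QuotientGroup.mk_pow, show y ^ p ^ k = 1 by simpa using congrArg Subtype.val hk]
        rfl
      obtain ⟨n, hn, a⟩ := fpf_iff_surj.1 f (t * y * t⁻¹ * y) ((QuotientGroup.eq_one_iff _).1 (by
        simp [i]))
      have b : n⁻¹ * t * y * (n⁻¹ * t)⁻¹ = y⁻¹ := by
        rw [mul_inv_cancel_right] at a
        rw [show n⁻¹ * t * y * (n⁻¹ * t)⁻¹ = n⁻¹ * (t * y * t⁻¹) * n by group, ← a]
        group
      have c : ((n⁻¹ * t : G) : G ⧸ N) = t := by simp [(QuotientGroup.eq_one_iff n).2 hn]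
      refine (Fact.out : p.Prime).ne_one (ht ▸ orderOf_eq_one_iff.2 (c ▸ (QuotientGroup.eq_one_iff
        _).2 (e.le (h.mem_centralizer_of_sq hp h2 (mem_bot.1 (f ▸ ⟨(QuotientGroup.eq_one_iff _).1
          ?_, mem_centralizer_singleton_iff.2 ?_⟩))))))
      · rw [QuotientGroup.mk_mul, c, ← sq, ← h2, ← ht, pow_orderOf_eq_one]
      · generalize n⁻¹ * t = u at b
        calc u * u * y⁻¹ = u * (u * y * u⁻¹)⁻¹ * u := by group
          _ = (u * y * u⁻¹) * (u * u) := by nth_rw 1 [b]; group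
          _ = _ := by rw [b])
    exact ⟨H, c.disjoint.eq_bot, fun g => (c.2 g).elim fun a e => ⟨a.1, a.1.2, by simp [← e]⟩⟩
  · obtain ⟨⟨x, hx⟩, x1⟩ := ne_bot_iff_exists_ne_one.1 h.ne
    obtain ⟨z, hz⟩ := exists_prime_orderOf_dvd_card' (G := G) 2 (.trans (by
      obtain ⟨k, hk⟩ := hp.exists_card_eq
      have := (h.index_cent hx (by simpa using x1)).trans hk ▸
        ((Fact.out : p.Prime).odd_of_ne_two h2).pow (n := k)
      exact even_iff_two_dvd.1 (by simpa [Nat.odd_add_one] using this)) (index_dvd_card (centralizer {x})))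
    have i : ∀ z : G, orderOf z = 2 → N ⊓ centralizer {z} = ⊥ := fun z hz => h.fpf hp (fun d => h2
      ((Nat.prime_dvd_prime_iff_eq Fact.out Nat.prime_two).1 (hz ▸ d))) fun a => by simp [a] at hz
    have j : ∀ z : G, orderOf z = 2 → ∀ a ∈ N, z * a * z⁻¹ = a⁻¹ := fun z hz a ha => by
      have z2 : z * z = 1 := by rw [← sq, ← hz, pow_orderOf_eq_one]
      obtain ⟨n, -, b⟩ := fpf_iff_surj.1 (i z hz) a ha
      simp [← mul_inv_eq_iff_eq_mul.2 b, mul_assoc, inv_eq_of_mul_eq_one_right z2, z2]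
    refine ⟨_, i z hz, fun g => ?_⟩
    obtain ⟨n, hn, a⟩ := fpf_iff_surj.1 (i z hz) (g * z * g⁻¹ * z⁻¹) (e.le fun a ha => by
      have b := (j (g * z * g⁻¹) (hz ▸ (MulAut.conj g).orderOf_eq z) _ (hN.conj_mem _ ha z⁻¹)).trans
        (j z hz _ (hN.conj_mem _ ha z⁻¹)).symm
      generalize g * z * g⁻¹ = w at b
      calc a * (w * z⁻¹) = z * (z⁻¹ * a * z⁻¹⁻¹) * z⁻¹ * (w * z⁻¹) := by group
        _ = _ := by rw [← b]; group)
    refine ⟨n, hn, mem_centralizer_singleton_iff.2 ?_⟩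
    rw [inv_mul_cancel_right] at a
    calc n⁻¹ * g * z = n⁻¹ * (g * z * g⁻¹) * g := by simp [mul_assoc]
      _ = _ := by rw [← a]; simp [mul_assoc]

theorem semiReg {H : Subgroup G} (d : N ⊓ H = ⊥) (s : ∀ g, ∃ n ∈ N, n⁻¹ * g ∈ H) :
    CF.Coprime.SemiReg H N := fun r hr r1 => by
  have hN := h.normal
  refine fpf_iff_surj.2 fun a ha => ?_
  obtain ⟨c, e⟩ := isConj_iff.1 (h.camina (fun a => r1 (mem_bot.1 (d ▸ ⟨a, hr⟩))) ha)
  obtain ⟨n, hn, k⟩ := s c
  obtain ⟨c, rfl⟩ : ∃ b, c = n * b := ⟨n⁻¹ * c, by group⟩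
  rw [inv_mul_cancel_left] at k
  have : c * r * c⁻¹ * r⁻¹ = 1 := mem_bot.1 (d ▸ ⟨by
    rw [show c * r * c⁻¹ * r⁻¹ = n⁻¹ * (n * c * r * (n * c)⁻¹) * n * r⁻¹ by group, e,
      show n⁻¹ * (a * r) * n * r⁻¹ = n⁻¹ * a * (r * n * r⁻¹) by group]
    exact N.mul_mem (N.mul_mem (N.inv_mem hn) ha) (hN.conj_mem _ hn r),
    H.mul_mem (H.mul_mem (H.mul_mem k hr) (H.inv_mem k)) (H.inv_mem hr)⟩)
  exact ⟨n, hn, by rw [← e]; nth_rw 1 [← mul_inv_eq_one.1 this]; group⟩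

end Gag

end CF.Char
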