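import Cfsg.Agent.Char.Gagola2
import Cfsg.Agent.Char.QSetup
import Cfsg.Agent.Invol.Q8
import Cfsg.Agent.Coprime.Thompson

/-!
Gagola characters: the solvable case.
-/

set_option autoImplicit false
set_option linter.unusedSectionVars false

namespace CF.Char

open Cfsg Subgroup CF.BG CF.Invol

variable {G : Type*} [Group G] [Finite G] {χ : IrrCharacter G} {N : Subgroup G} {p : ℕ} {s : G}

theorem cent_of_relIndex_two {U C : Subgroup G} (i : C.relIndex U = 2) (k : IsPGroup 2 C)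
    (n : s ∈ 𝐍 U) (c : s ∈ 𝐂 C) (o : Odd (orderOf s)) : s ∈ 𝐂 U :=
  mem_centralizer_of_odd_of_stable k c (fun v hv => (mul_mem_iff_of_index_two i
    (a := ⟨v, hv⟩⁻¹) (b := ⟨s * v * s⁻¹, (mem_normalizer_iff.1 n v).1 hv⟩)).2 (inv_mem_iff.trans
      (mem_normalizer_iff.1 (centralizer_le_normalizer _ c) v))) o

theorem exists_q8_of_odd {Q : Subgroup G} {m : ℕ} (hm : 1 ≤ m) (e : Q ≃* QuaternionGroup (2 ^ m))
    (n : s ∈ 𝐍 Q) (c : s ∉ 𝐂 Q) (o : Odd (orderOf s)) : ∃ i j, IsQ8 Q i j := by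
  obtain rfl | h2 := hm.eq_or_lt
  · exact exists_isQ8 e
  obtain ⟨a, b, h⟩ := exists_qSetup e
  have k := h.isPGroup.to_le h.zpowers_le
  refine absurd (cent_of_relIndex_two h.relIndex_eq k n ?_ o) c
  rw [CF.Coprime.centralizer_zpowers_eq]
  refine mem_centralizer_singleton_iff.2 (commute_of_odd_of_conj_mem_zpowers k (by_contra fun x =>
    ?_) o)
  have := h.orderOf_of_notMem ((mem_normalizer_iff.1 n a).1 h.a_mem) x
  rw [show orderOf (s * a * s⁻¹) = orderOf a from (MulAut.conj s).orderOf_eq a, h.ha] at this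
  have := Nat.pow_right_injective le_rfl (this.trans (show 4 = 2 ^ 2 from rfl))
  omega

theorem not_dvd_card_der (hp : p.Prime) (sol : Sol (⊤ : Subgroup G)) (A : 𝐎 {p} (⊤ : Subgroup G) = ⊥)
    (B : ∀ q, q.Prime → q ≠ p → ∀ R : Subgroup G, PiGrp {q} R → IsCyclic R ∨
      (q = 2 ∧ ∃ n : ℕ, 1 ≤ n ∧ Nonempty (R ≃* QuaternionGroup (2 ^ n))))
    (C : ∀ S : Subgroup G, Syl p S ⊤ → ∃ m, S.relIndex (𝐍 S) + 1 = p ^ m) :
    ¬ p ∣ ♯(commutator G) := fun d => by
  have := Fact.mk hp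
  obtain ⟨⟨s, hs⟩, os⟩ := exists_prime_orderOf_dvd_card' p d
  rw [← orderOf_coe] at os
  replace os : orderOf s = p := os
  have ps : PiGrp {p} (zpowers s) := piGrp_of_card (k := 1) hp (by simp [os])
  obtain ⟨q, hq, c⟩ : ∃ q, q.Prime ∧ s ∉ 𝐂 (𝐎 {q} ⊤) := by
    by_contra! a
    have b : s ∈ 𝐅 ⊤ := sol.cent_F_le ⟨trivial, zpowers_le.1 (le_centralizer_iff.1
      (F_le_of_forall fun q hq _ => le_centralizer_iff.1 (zpowers_le.2 (a q hq))))⟩
    exact hp.ne_one (os ▸ orderOf_eq_one_iff.2 (mem_bot.1 (A ▸ zpowers_le.1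
      (le_O_of_le_F (zpowers_le.2 b) ps))))
  have qp : q ≠ p := fun e => c (by simp [e, A])
  have nQ : ⊤ ≤ 𝐍 (𝐎 {q} (⊤ : Subgroup G)) := (O_normal _ _).2
  obtain a | ⟨rfl, m, hm, ⟨e⟩⟩ := B q hq qp _ (O_pi _ ⊤)
  · exact c (Cyc.der_le_cent a nQ hs)
  have o : Odd (orderOf s) := os ▸ hp.odd_of_ne_two qp.symm
  obtain ⟨i, j, h⟩ := exists_q8_of_odd hm e (nQ trivial) c o
  generalize 𝐎 {2} (⊤ : Subgroup G) = Q at *
  have : Q.Normal := normalizer_eq_top_iff.1 (top_le_iff.1 nQ)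
  have i6 := h.relIndex_dvd_six
  rw [top_le_iff.1 nQ, relIndex_top_right] at i6
  have sK : s ∉ Q ⊔ 𝐂 Q := fun a => c (mem_of_relIndex_pow_two (k := 3) le_normalizer_of_normal
    (by rw [relIndex_sup_right]; exact (relIndex_dvd_card _ _).trans h.card.dvd) a o)
  have hK : ∀ r ∈ Q ⊔ 𝐂 Q, ∀ R, PiGrp {2} R → r ∈ R → r ∈ Q := fun r hr R k hR => by
    obtain ⟨x, hx, y, hy, rfl⟩ := mem_sup_of_normal_right.1 hr
    have yT : y ∈ Q ⊔ R := (Subgroup.mul_mem_cancel_left _ (mem_sup_left hx)).1 (mem_sup_right hR)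
    refine mul_mem hx ?_
    obtain a | ⟨-, m, -, ⟨e⟩⟩ := B 2 hq qp _ ((piGrp_of_isPGroup hq h.isPGroup).sup k
      (.inr le_normalizer_of_normal))
    · exact absurd (mem_cent.1 (Cyc.abel (Cyc.mono a le_sup_left) h.right_mem) i h.left_mem)
        h.not_commute
    obtain ⟨a, b, t⟩ := exists_qSetup e
    have z := t.eq_z (mem_sup_left (mul_mem h.left_mem h.left_mem)) h.orderOf_sq
    have u : ∀ g ∈ Q ⊔ R, g * g = 1 → g ∈ Q := fun g hg e => by
      by_cases g1 : g = 1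
      · exact g1 ▸ one_mem Q
      · rw [t.eq_z hg (orderOf_eq_prime (by rwa [sq]) g1), ← z]
        exact mul_mem h.left_mem h.left_mem
    by_cases ya : y ∈ zpowers a
    · refine u y yT (by_contra fun y2 => h.not_commute ?_)
      obtain ⟨k, hk⟩ := t.mem_zpowers_of_commute ya y2 (mem_sup_left h.left_mem) (hy i h.left_mem)
      obtain ⟨l, hl⟩ := t.mem_zpowers_of_commute ya y2 (mem_sup_left h.right_mem) (hy j h.right_mem)
      exact hk ▸ hl ▸ Commute.zpow_zpow_self a k l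
    · refine (Subgroup.mul_mem_cancel_left _ h.left_mem).1 (u _ (mul_mem (mem_sup_left h.left_mem) yT) ?_)
      rw [mul_assoc, ← mul_assoc y, ← hy i h.left_mem, mul_assoc, t.sq_eq yT ya, ← z, ← mul_assoc,
        h.pow_four]
  generalize hK' : Q ⊔ 𝐂 Q = K at *
  have : K.Normal := hK' ▸ inferInstance
  have e6 : K.index = 6 := by_contra fun n => sK (by
    have : IsCyclic (G ⧸ K) := by
      have := Nat.le_of_dvd (by norm_num) i6
      obtain a | a | a : K.index = 1 ∨ K.index = 2 ∨ K.index = 3 := by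
        interval_cases K.index <;> simp_all
      · have := (Nat.card_eq_one_iff_unique.1 a).1
        infer_instance
      · exact isCyclic_of_prime_card a
      · exact isCyclic_of_prime_card a
    exact (Subgroup.Normal.quotient_commutative_iff_commutator_le.1 inferInstance) hs)
  obtain rfl : p = 3 := by
    have a : p ∣ 2 * 3 := (orderOf_eq_prime (x := (s : G ⧸ K)) (p := p) (by
      rw [← QuotientGroup.mk_pow, ← os, pow_orderOf_eq_one]; rfl) (mt (QuotientGroup.eq_one_iff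
        s).1 sK)) ▸ (_root_.orderOf_dvd_natCard (s : G ⧸ K)).trans e6.dvd
    exact (Nat.prime_dvd_prime_iff_eq hp Nat.prime_three).1 ((hp.dvd_mul.1 a).resolve_left fun b =>
      qp ((Nat.prime_dvd_prime_iff_eq hp hq).1 b).symm)
  obtain ⟨S, hS, sS⟩ := exists_syl_le le_top ps
  obtain ⟨m, hm⟩ := C S hS
  obtain ⟨k, hk⟩ := hS.pi.card_pow
  have iL : (K ⊔ S).index = 2 := by
    have a := relIndex_mul_index (le_sup_left : K ≤ K ⊔ S)
    have b := (hS.idx_of_le (le_sup_right : S ≤ K ⊔ S)).not_dvd' hp rfl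
    have c := (hS.pi.relIndex K).not_dvd hq qp
    rw [relIndex_top_right] at b
    rw [e6, relIndex_sup_left] at a
    have := Nat.le_of_dvd (by norm_num) (Dvd.intro_left _ a)
    interval_cases (K ⊔ S).index <;> omega
  have := normal_of_index_eq_two iL
  have f := (hS.of_le (K := K ⊔ S) le_sup_right le_top).syl_frattini_sup (M := ⊤)
    ⟨le_top, le_normalizer_of_normal⟩
  have i2 : (K ⊔ S).relIndex (𝐍 S) = 2 := by
    rw [← relIndex_sup_left, ← top_inf_eq (𝐍 S), f, relIndex_top_right, iL]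
  have zc : ∀ g, g * (i * i) * g⁻¹ = i * i := fun g => h.eq_sq_of_invol (Normal.conj_mem ‹_› _
    (mul_mem h.left_mem h.left_mem) g) (((MulAut.conj g).orderOf_eq _).trans h.orderOf_sq)
  have d2 : 2 ∣ ♯((K ⊔ S) ⊓ 𝐍 S) := h.orderOf_sq ▸ Subgroup.orderOf_dvd_natCard _ ⟨mem_sup_left (hK' ▸
    mem_sup_left (mul_mem h.left_mem h.left_mem)), centralizer_le_normalizer _ fun g _ =>
      mul_inv_eq_iff_eq_mul.1 (zc g)⟩
  have d4 : 4 ∣ ♯((K ⊔ S) ⊓ 𝐍 S) := by
    have a := card_inf_mul_relIndex (K ⊔ S) (𝐍 S)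
    have b := card_mul_relIndex (le_normalizer : S ≤ 𝐍 S)
    rw [i2, ← b, hk] at a
    have c : 4 ∣ S.relIndex (𝐍 S) := (Nat.Coprime.pow_right k (by norm_num)).dvd_of_dvd_mul_left
      (a ▸ mul_dvd_mul_right d2 2)
    have e : 3 ^ m % 8 = 1 ∨ 3 ^ m % 8 = 3 := by
      clear * -
      induction m with
      | zero => simp
      | succ n ih => rw [pow_succ]; omega
    exact Nat.dvd_of_mul_dvd_mul_right two_pos (a ▸ Dvd.dvd.mul_left (by omega) _)
  obtain ⟨R, hR⟩ := exists_syl 2 ((K ⊔ S) ⊓ 𝐍 S)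
  have RK : R ≤ K := hR.pi.le_of_relIndex (hR.le.trans inf_le_left) le_normalizer_of_normal
    (by rw [relIndex_sup_left]; exact (hS.pi.relIndex K).of_single qp.symm)
  obtain ⟨r, hr, r2⟩ : ∃ r ∈ R, r * r ≠ 1 := by
    by_contra! a
    have := Nat.le_of_dvd Nat.card_pos ((hR.dvd_card d4 (piNat_pow_self hq 2)).trans
      (card_dvd_of_le (show R ≤ zpowers (i * i) from fun r hr => by
        obtain rfl | rfl | b := h.mul_self_cases (hK r (RK hr) R hR.pi hr)
        exacts [one_mem _, mem_zpowers _, absurd (b ▸ a r hr) h.sq_ne])))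
    simp [h.orderOf_sq] at this
  have rQ := hK r (RK hr) R hR.pi hr
  obtain ⟨j, t⟩ := exists_isQ8_of_mem h.nonempty_equiv.some rQ r2
  refine c (cent_of_relIndex_two (C := zpowers r) ?_ (h.isPGroup.to_le (zpowers_le.2 rQ))
    (nQ trivial) ?_ o)
  · have := card_mul_relIndex (zpowers_le.2 rQ)
    rw [h.card, Nat.card_zpowers, t.orderOf_left] at this
    omega
  · rw [CF.Coprime.centralizer_zpowers_eq, mem_centralizer_singleton_iff, ← mul_inv_eq_one,
      ← mem_bot, ← (piGrp_of_isPGroup hq h.isPGroup).inf_eq_bot (hS.pi.of_single_ne qp.symm),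
      mul_inv_rev, ← mul_assoc]
    refine mem_inf.2 ⟨mul_mem (Normal.conj_mem ‹_› _ rQ s) (inv_mem rQ), ?_⟩
    rw [mul_assoc, mul_assoc, ← mul_assoc r]
    exact mul_mem (zpowers_le.1 sS) ((mem_normalizer_iff.1 (hR.le hr).2 _).1
      (inv_mem (zpowers_le.1 sS)))

namespace Gag

variable (h : Gag χ N) [Fact p.Prime] (hp : IsPGroup p N)
include h hp

theorem cyc_or_quat {H : Type*} [Group H] {f : G →* H} (hf : Function.Surjective f)
    (k : IsPGroup p f.ker) {q : ℕ} (hq : q.Prime) (qp : q ≠ p) (R : Subgroup H) (r : PiGrp {q} R) :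
    IsCyclic R ∨ (q = 2 ∧ ∃ n : ℕ, 1 ≤ n ∧ Nonempty (R ≃* QuaternionGroup (2 ^ n))) := by
  have := Finite.of_surjective f hf
  have := Fact.mk hq
  have := h.normal
  obtain ⟨T, hT⟩ := exists_syl q (R.comap f)
  have e := hT.map f
  rw [map_comap_eq_self_of_surjective hf] at e
  obtain rfl := e.eq_of_pi r
  have e : T ≃* T.map f := .ofBijective (f.subgroupMap T) ⟨(injective_iff_map_eq_one _).2 fun a ha =>
    Subtype.ext (mem_bot.1 (hT.pi.inf_eq_bot ((piGrp_of_isPGroup Fact.out k).of_single_ne qp.symm) ▸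
      mem_inf.2 ⟨a.2, congrArg Subtype.val ha⟩)), f.subgroupMap_surjective T⟩
  obtain a | ⟨a, n, b, ⟨c⟩⟩ := CF.Coprime.SemiReg.isCyclic_or_quaternion (R := T) (fun r hr =>
    h.fpf hp ((hT.pi.elt hr).not_dvd Fact.out qp.symm)) le_normalizer_of_normal h.ne hT.pi.isPGroup
  · exact .inl (isCyclic_of_surjective e e.surjective)
  · exact .inr ⟨a, n, b, ⟨e.symm.trans c⟩⟩

theorem relIndex_norm (P : Sylow p G) : ∃ m, P.1.relIndex (𝐍 P.1) + 1 = p ^ m := by
  classical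
  have := Fintype.ofFinite (𝐍 P.1)
  have := h.normal
  have l := (hp.le_sylow_of_normal P).trans le_normalizer
  have c : ∀ x ∈ N ⊓ 𝐂 P.1, x ≠ 1 → centralizer {x} = P.1 := fun x hx x1 =>
    P.3 (h.isPGroup_cent hp hx.1 x1) fun g hg => mem_centralizer_singleton_iff.2 (hx.2 g hg)
  obtain ⟨x, hx, x1⟩ := exists_mem_ne_one (PiGrp.inf_cent_ne_bot (piGrp_of_isPGroup Fact.out P.2)
    (piGrp_of_isPGroup Fact.out hp) le_normalizer_of_normal h.ne)
  obtain ⟨m, hm⟩ := (hp.to_inf_left (K := 𝐂 P.1)).exists_card_eq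
  refine ⟨m, ?_⟩
  rw [← hm, relIndex, show P.1.subgroupOf (𝐍 P.1) = centralizer {⟨x, l hx.1⟩} from by
    ext g; simp [← c x hx x1, mem_subgroupOf, mem_centralizer_singleton_iff, Subtype.ext_iff],
    ← card_filter_isConj, ← Nat.card_congr (subgroupOfEquivOfLe (inf_le_left.trans l)).toEquiv,
    Nat.card_eq_fintype_card, Fintype.card_subtype, ← Finset.card_erase_add_one (a := 1)
      (s := Finset.univ.filter (· ∈ (N ⊓ 𝐂 P.1).subgroupOf _)) (by simp)]
  congr 2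
  ext g
  simp only [Finset.mem_filter, Finset.mem_univ, true_and, Finset.mem_erase, mem_subgroupOf]
  refine ⟨fun a => ?_, fun ⟨a, b⟩ => ?_⟩
  · obtain ⟨u, rfl⟩ := isConj_iff.1 a
    exact ⟨fun e => x1 (by simpa using e), (mem_normalizer_iff.1 (norm_inf_cent
      le_normalizer_of_normal le_rfl u.2) x).1 hx⟩
  · have g1 : g.1 ≠ 1 := by simpa using a
    obtain ⟨u, e⟩ := isConj_iff.1 (h.cnj x hx.1 g b.1 x1 g1)
    refine isConj_iff.2 ⟨⟨u, mem_normalizer_iff.2 fun y => ?_⟩, Subtype.ext e⟩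
    nth_rw 1 [← c x hx x1]
    rw [← c g b g1, ← e]
    simp [mem_centralizer_singleton_iff, mul_assoc]
    simp [← mul_assoc]

end Gag

end CF.Char
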