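import Cfsg.Agent.Transfer.Frat
import Cfsg.Agent.Transfer.Residual
import Cfsg.Agent.Solv.Nilpotent
import Cfsg.Agent.Char.Classes

/-! Camina-type lemmas for `p`-groups, used for S4805. -/

set_option autoImplicit false

namespace CF.OneNL
open Subgroup
open scoped commutatorElement

variable {G : Type*} [Group G]

theorem mem_cent {z y : G} : y ∈ centralizer ({z} : Set G) ↔ y * z = z * y := by
  rw [mem_centralizer_iff]; simp [eq_comm]

/-- If all commutators `⁅y, z⁆` (`y ∈ A`) lie in `R`, then `|A : C_A(z)| ≤ |R|`. -/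
theorem relIndex_cent_le [Finite G] {A R : Subgroup G} {z : G} (h : ∀ y ∈ A, ⁅y, z⁆ ∈ R) :
    (centralizer ({z} : Set G)).relIndex A ≤ Nat.card R := by
  unfold relIndex index
  let f : A ⧸ (centralizer ({z} : Set G)).subgroupOf A → R := fun x =>
    Quotient.liftOn' x (fun y : A => (⟨⁅(y : G), z⁆, h y y.2⟩ : R)) (by
      intro a b hab
      rw [QuotientGroup.leftRel_apply, mem_subgroupOf, mem_cent] at hab
      apply Subtype.ext
      simp only [coe_mul, coe_inv] at hab
      simp only [commutatorElement_def]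
      have : (b : G) * z * (b : G)⁻¹ = a * z * (a : G)⁻¹ := by
        calc (b : G) * z * (b : G)⁻¹ = a * ((a : G)⁻¹ * b * z) * (b : G)⁻¹ := by group
          _ = a * (z * ((a : G)⁻¹ * b)) * (b : G)⁻¹ := by rw [hab]
          _ = a * z * (a : G)⁻¹ := by group
      rw [this])
  refine Nat.card_le_card_of_injective f ?_
  intro x y hxy
  induction x using QuotientGroup.induction_on with | H a => ?_
  induction y using QuotientGroup.induction_on with | H b => ?_
  rw [QuotientGroup.eq, mem_subgroupOf, mem_cent]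
  have h1 : ⁅(a : G), z⁆ = ⁅(b : G), z⁆ := congrArg Subtype.val hxy
  simp only [commutatorElement_def] at h1
  have h2 : (a : G) * z * (a : G)⁻¹ = b * z * (b : G)⁻¹ := mul_right_cancel h1
  simp only [coe_mul, coe_inv]
  calc (a : G)⁻¹ * b * z = (a : G)⁻¹ * (b * z * (b : G)⁻¹) * b := by group
    _ = (a : G)⁻¹ * (a * z * (a : G)⁻¹) * b := by rw [h2]
    _ = z * ((a : G)⁻¹ * b) := by group

theorem card_le_of_comm [Finite G] {A R : Subgroup G} {z : G} (h : ∀ y ∈ A, ⁅y, z⁆ ∈ R) :
    Nat.card A ≤ Nat.card R * Nat.card (A ⊓ centralizer ({z} : Set G) : Subgroup G) := by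
  have h1 := relIndex_cent_le h
  have h2 := CF.Solv.card_inf_mul_relIndex (centralizer ({z} : Set G)) A
  rw [← h2, inf_comm A, mul_comm (Nat.card R)]
  exact Nat.mul_le_mul_left _ h1

/-- Nilpotency: an element of `A \ B` central in `P` modulo `B`. -/
theorem exists_central_mod [Finite G] {p : ℕ} [Fact p.Prime] {P A B : Subgroup G}
    (hP : IsPGroup p P) (hAP : A ≤ P) (hA : ⁅A, P⁆ ≤ A) (h : ¬ A ≤ B) :
    ∃ z ∈ A, z ∉ B ∧ ∀ y ∈ P, ⁅y, z⁆ ∈ B := by
  have := hP.isNilpotent
  induction A using WellFoundedLT.induction with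
  | ind A ih =>
    by_cases h1 : ⁅A, P⁆ ≤ B
    · obtain ⟨z, hz, hzB⟩ := SetLike.not_le_iff_exists.1 h
      refine ⟨z, hz, hzB, fun y hy => h1 ?_⟩
      rw [commutator_comm]
      exact commutator_mem_commutator hy hz
    · have hlt : ⁅A, P⁆ < A := by
        refine lt_of_le_of_ne hA fun e => h ?_
        rw [CF.Solv.eq_bot_of_le_commutator hAP e.ge]
        exact bot_le
      obtain ⟨z, hz, hzB, hc⟩ := ih _ hlt (hA.trans hAP) (commutator_mono hA le_rfl) h1
      exact ⟨z, hA hz, hzB, hc⟩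

/-- Fixed points of an `ℓ`-element on a `p`-group of small relative index. -/
theorem le_cent_of_small [Finite G] {p l n b : ℕ} [Fact p.Prime] (hl : l.Prime) (hlp : l ≠ p)
    (hz : ∀ k, 1 ≤ k → k < n → ¬ l ∣ p ^ k - 1) {d : G} (hd : orderOf d = l ^ b)
    {A B : Subgroup G} (hB : IsPGroup p B) (hAB : A ≤ B) (hdB : ∀ x ∈ B, d * x * d⁻¹ ∈ B)
    (hA : A ≤ centralizer ({d} : Set G)) (hs : Nat.card B < p ^ n * Nat.card A) :
    B ≤ centralizer ({d} : Set G) := by
  have hp : p.Prime := Fact.out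
  have : Fact l.Prime := ⟨hl⟩
  have hn : d ∈ normalizer (B : Set G) := mem_normalizer_fintype hdB
  have hD : IsPGroup l (zpowers d) := IsPGroup.of_card (by rw [Nat.card_zpowers, hd])
  have hDn : zpowers d ≤ normalizer (B : Set G) := zpowers_le.2 hn
  let _ : MulAction (zpowers d) B :=
    { smul := fun e x => ⟨(e : G) * x * (e : G)⁻¹, ((mem_normalizer_iff.1 (hDn e.2)) x).1 x.2⟩
      one_smul := fun x => Subtype.ext (by
        change ((1 : zpowers d) : G) * x * ((1 : zpowers d) : G)⁻¹ = x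
        simp)
      mul_smul := fun e e' x => Subtype.ext (by
        change ((e * e' : zpowers d) : G) * x * ((e * e' : zpowers d) : G)⁻¹ =
          (e : G) * ((e' : G) * x * (e' : G)⁻¹) * (e : G)⁻¹
        simp only [coe_mul]; group) }
  have hsm : ∀ (e : zpowers d) (x : B), ((e • x : B) : G) = (e : G) * x * (e : G)⁻¹ :=
    fun _ _ => rfl
  have h1 := hD.card_modEq_card_fixedPoints B
  set C : Subgroup G := B ⊓ centralizer ({d} : Set G) with hC
  have h2 : Nat.card (MulAction.fixedPoints (zpowers d) B) = Nat.card C := by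
    refine Nat.card_congr
      { toFun := fun x => ⟨x.1.1, x.1.2, ?_⟩
        invFun := fun x => ⟨⟨x.1, x.2.1⟩, ?_⟩
        left_inv := fun x => rfl
        right_inv := fun x => rfl }
    · have := congrArg Subtype.val (x.2 ⟨d, mem_zpowers d⟩)
      rw [hsm] at this
      refine mem_cent.2 ?_
      simp only at this
      calc (x.1.1 : G) * d = (d * x.1.1 * d⁻¹) * d := by rw [this]
        _ = d * x.1.1 := by group
    · intro e
      apply Subtype.ext
      rw [hsm]
      have h3 : Commute (x : G) d := mem_cent.1 x.2.2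
      obtain ⟨k, hk⟩ := mem_zpowers_iff.1 e.2
      have h4 : Commute (x : G) e := hk ▸ h3.zpow_right k
      simp only
      rw [← h4.eq]; group
  rw [h2] at h1
  obtain ⟨s, hs1⟩ := (IsPGroup.iff_card).1 hB
  obtain ⟨t, ht⟩ := (IsPGroup.iff_card).1 (hB.to_le (inf_le_left : C ≤ B))
  obtain ⟨a, ha⟩ := (IsPGroup.iff_card).1 (hB.to_le hAB)
  have hts : t ≤ s := by
    have := card_le_of_le (inf_le_left : C ≤ B)
    rw [hs1, ht] at this
    exact (Nat.pow_le_pow_iff_right hp.one_lt).1 this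
  have hat : a ≤ t := by
    have := card_le_of_le (le_inf hAB hA : A ≤ C)
    rw [ha, ht] at this
    exact (Nat.pow_le_pow_iff_right hp.one_lt).1 this
  have hsn : s < n + a := by
    rw [hs1, ha, ← pow_add] at hs
    exact (Nat.pow_lt_pow_iff_right hp.one_lt).1 hs
  have hst : s = t := by
    by_contra hne
    refine hz (s - t) (by omega) (by omega) ?_
    rw [hs1, ht] at h1
    have h5 : l ∣ p ^ s - p ^ t := (Nat.modEq_iff_dvd' (Nat.pow_le_pow_right hp.pos hts)).1 h1.symm
    have h6 : p ^ s - p ^ t = p ^ t * (p ^ (s - t) - 1) := by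
      rw [Nat.mul_sub, ← pow_add, mul_one, Nat.add_sub_cancel' hts]
    rw [h6] at h5
    refine (hl.dvd_mul.1 h5).resolve_left fun h7 => hlp ?_
    exact (Nat.prime_dvd_prime_iff_eq hl hp).1 (hl.dvd_of_dvd_pow h7)
  have : C = B := eq_of_le_of_card_ge inf_le_left (by rw [hs1, ht, hst])
  rw [← this]; exact inf_le_right


/-- The `p`-group step: a Camina `p`-group with a Zsigmondy automorphism has class two, and
contains an element of order `p` outside its derived subgroup. -/
theorem exists_pow_eq_one [Finite G] {p n : ℕ} [Fact p.Prime] (hodd : Odd p) {P Q : Subgroup G}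
    (hP : IsPGroup p P) (hQ : ⁅P, P⁆ = Q) (hne : ¬ P ≤ Q) (hpow : ∀ y ∈ P, y ^ p ∈ Q)
    (hn : Q.relIndex P = p ^ n)
    (hc : ∀ x ∈ P, x ∉ Q → Nat.card (P ⊓ centralizer ({x} : Set G) : Subgroup G) ≤ p ^ n)
    (hd : n ≤ 2 ∨ ∃ (l b : ℕ) (d : G), l.Prime ∧ l ≠ p ∧ (∀ k, 1 ≤ k → k < n → ¬ l ∣ p ^ k - 1) ∧
      orderOf d = l ^ b ∧ d ∈ normalizer (P : Set G) ∧
      ∀ y ∈ P, ∃ w ∈ P, y⁻¹ * (w⁻¹ * (d * w * d⁻¹)) ∈ Q) :
    ∃ x ∈ P, x ∉ Q ∧ x ^ p = 1 := by
  have hp : p.Prime := Fact.out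
  have hQP : Q ≤ P := hQ ▸ commutator_le_self P
  obtain ⟨x0, hx0, hx0Q⟩ := SetLike.not_le_iff_exists.1 hne
  -- subgroups of `Q` centralizing an element outside `Q` are small
  have small : ∀ x ∈ P, x ∉ Q → ∀ R : Subgroup G, R ≤ Q → R ≤ centralizer ({x} : Set G) →
      Nat.card R < p ^ n := by
    intro x hx hxQ R hRQ hRc
    refine lt_of_lt_of_le (CF.Solv.card_lt_of_lt ?_) (hc x hx hxQ)
    refine lt_of_le_of_ne (le_inf (hRQ.trans hQP) hRc) fun e => hxQ (hRQ ?_)
    rw [e]; exact ⟨hx, mem_cent.2 rfl⟩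
  set Z : Subgroup G := Q ⊓ centralizer (P : Set G) with hZ
  have hZc : ∀ z ∈ Z, ∀ y ∈ P, Commute y z := fun z hz y hy => mem_centralizer_iff.1 hz.2 y hy
  have hZs : Nat.card Z < p ^ n :=
    small x0 hx0 hx0Q Z inf_le_left fun z hz => mem_cent.2 (hZc z hz x0 hx0).symm.eq
  have hQZ : Q ≤ Z := by
    by_contra hQZ
    obtain ⟨u, huQ, huZ, hu⟩ := exists_central_mod hP hQP
      (hQ ▸ commutator_mono (commutator_le_self P) le_rfl) hQZ
    refine huZ ⟨huQ, mem_centralizer_iff.2 ?_⟩
    rcases hd with hd | ⟨l, b, d, hl, hlp, hz, hdo, hdN, hsurj⟩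
    · by_contra hcon
      have h1 := relIndex_cent_le hu
      have h2 : ¬ P ⊓ centralizer ({u} : Set G) ≤ Q := by
        intro h
        have h3 : Q.relIndex P ≤ (P ⊓ centralizer ({u} : Set G)).relIndex P :=
          relIndex_le_of_le_left h (by unfold relIndex; exact index_ne_zero_of_finite)
        rw [inf_comm, inf_relIndex_right] at h3
        omega
      obtain ⟨x, hx, hxQ⟩ := SetLike.not_le_iff_exists.1 h2
      have hZ1 : Z ≠ ⊥ := by
        intro e
        apply hcon
        intro y hy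
        have := hu y hy
        rw [e, mem_bot, commutatorElement_eq_one_iff_mul_comm] at this
        exact this
      have hR : Z ⊔ zpowers u ≤ Q := sup_le inf_le_left (zpowers_le.2 huQ)
      have h4 := small x hx.1 hxQ (Z ⊔ zpowers u) hR (sup_le
        (fun z hz => mem_cent.2 (hZc z hz x hx.1).symm.eq)
        (zpowers_le.2 (mem_cent.2 (mem_cent.1 hx.2).symm)))
      have h5 : Nat.card Z < Nat.card (Z ⊔ zpowers u : Subgroup G) :=
        CF.Solv.card_lt_of_lt (lt_of_le_of_ne le_sup_left fun e => huZ (by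
          rw [e]; exact mem_sup_right (mem_zpowers u)))
      obtain ⟨a, ha⟩ := (IsPGroup.iff_card).1 (hP.to_le ((inf_le_left : Z ≤ Q).trans hQP))
      obtain ⟨c, hc'⟩ := (IsPGroup.iff_card).1 (hP.to_le (hR.trans hQP))
      have h6 : 1 < Nat.card Z := (one_lt_card_iff_ne_bot Z).2 hZ1
      rw [ha] at h5 h6
      rw [hc'] at h4 h5
      have h7 := (Nat.pow_lt_pow_iff_right hp.one_lt).1 h4
      have h8 := (Nat.pow_lt_pow_iff_right hp.one_lt).1 h5
      have h9 : 0 < a := by
        rcases Nat.eq_zero_or_pos a with h | h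
        · rw [h] at h6; simp at h6
        · exact h
      omega
    · have hdP : ∀ y, y ∈ P ↔ d * y * d⁻¹ ∈ P := mem_normalizer_iff.1 hdN
      have hdP' : ∀ y ∈ P, d⁻¹ * y * d ∈ P := fun y hy => (hdP _).2 (by
        simpa [mul_assoc] using hy)
      have hdQ : ∀ y ∈ Q, d * y * d⁻¹ ∈ Q := by
        have : d ∈ normalizer (Q : Set G) := by
          rw [← hQ]
          exact CF.Solv.normalizer_inf_le_normalizer_commutator P P ⟨hdN, hdN⟩
        exact fun y hy => (mem_normalizer_iff.1 this y).1 hy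
      have hdZ : ∀ z ∈ Z, d * z * d⁻¹ ∈ Z := by
        intro z hz
        refine ⟨hdQ z hz.1, mem_centralizer_iff.2 fun y hy => ?_⟩
        have := (hZc z hz _ (hdP' y hy)).eq
        calc y * (d * z * d⁻¹) = d * (d⁻¹ * y * d * z) * d⁻¹ := by group
          _ = d * (z * (d⁻¹ * y * d)) * d⁻¹ := by rw [this]
          _ = d * z * d⁻¹ * y := by group
      let Z1 : Subgroup G :=
        { carrier := {v | v ∈ Q ∧ ∀ y ∈ P, ⁅y, v⁆ ∈ Z}
          one_mem' := ⟨Q.one_mem, fun y _ => by simp⟩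
          mul_mem' := fun {a b} ha hb => ⟨Q.mul_mem ha.1 hb.1, fun y hy => by
            rw [CF.Transfer.commutatorElement_mul_right',
              (hZc _ (hb.2 y hy) a (hQP ha.1)).eq, mul_inv_cancel_right]
            exact Z.mul_mem (ha.2 y hy) (hb.2 y hy)⟩
          inv_mem' := fun {a} ha => ⟨Q.inv_mem ha.1, fun y hy => by
            have h1 : ⁅y, a⁻¹⁆ = a⁻¹ * ⁅y, a⁆⁻¹ * a := by
              simp only [commutatorElement_def]; group
            rw [h1, (hZc _ (Z.inv_mem (ha.2 y hy)) _ (P.inv_mem (hQP ha.1))).eq,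
              inv_mul_cancel_right]
            exact Z.inv_mem (ha.2 y hy)⟩ }
      have hZ1Q : Z1 ≤ Q := fun v hv => hv.1
      have hZZ1 : Z ≤ Z1 := fun z hz => ⟨hz.1, fun y hy => by
        rw [commutatorElement_eq_one_iff_mul_comm.2 (hZc z hz y hy).eq]; exact Z.one_mem⟩
      have hdZ1 : ∀ v ∈ Z1, d * v * d⁻¹ ∈ Z1 := fun v hv => ⟨hdQ v hv.1, fun y hy => by
        have h1 : ⁅y, d * v * d⁻¹⁆ = d * ⁅d⁻¹ * y * d, v⁆ * d⁻¹ := by
          simp only [commutatorElement_def]; group
        rw [h1]; exact hdZ _ (hv.2 _ (hdP' y hy))⟩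
      have c1 : Z ≤ centralizer ({d} : Set G) :=
        le_cent_of_small hl hlp hz hdo (A := ⊥) (hP.to_le ((inf_le_left : Z ≤ Q).trans hQP))
          bot_le hdZ bot_le (by simpa using hZs)
      have c2 : Z1 ≤ centralizer ({d} : Set G) := by
        refine le_cent_of_small hl hlp hz hdo (hP.to_le (hZ1Q.trans hQP)) hZZ1 hdZ1 c1 ?_
        have h1 : Nat.card Z1 ≤ Nat.card Z *
            Nat.card (Z1 ⊓ centralizer ({x0} : Set G) : Subgroup G) :=
          card_le_of_comm fun v hv => by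
            rw [← commutatorElement_inv]; exact Z.inv_mem (hv.2 x0 hx0)
        have h2 := small x0 hx0 hx0Q (Z1 ⊓ centralizer ({x0} : Set G)) (inf_le_left.trans hZ1Q)
          inf_le_right
        rw [mul_comm]
        exact lt_of_le_of_lt h1 ((Nat.mul_lt_mul_left Nat.card_pos).2 h2)
      have hud : d * u * d⁻¹ = u := by
        rw [← mem_cent.1 (c2 ⟨huQ, hu⟩)]; group
      have hmul : ∀ a ∈ P, ∀ b ∈ P, ⁅a * b, u⁆ = ⁅a, u⁆ * ⁅b, u⁆ := by
        intro a ha b hb
        rw [CF.Transfer.commutatorElement_mul_left', (hZc _ (hu b hb) a ha).eq,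
          mul_inv_cancel_right]
        exact (hZc _ (hu b hb) _ (hQP (hu a ha).1)).symm.eq
      have hinv : ∀ a ∈ P, ⁅a⁻¹, u⁆ = ⁅a, u⁆⁻¹ := by
        intro a ha
        rw [eq_inv_iff_mul_eq_one, ← hmul _ (P.inv_mem ha) _ ha]; simp
      have hQu : Q ≤ centralizer ({u} : Set G) := by
        rw [← hQ, commutator_le]
        intro a ha b hb
        rw [mem_cent, ← commutatorElement_eq_one_iff_mul_comm, commutatorElement_def a b,
          hmul _ (P.mul_mem (P.mul_mem ha hb) (P.inv_mem ha)) _ (P.inv_mem hb),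
          hmul _ (P.mul_mem ha hb) _ (P.inv_mem ha), hmul _ ha _ hb, hinv a ha, hinv b hb,
          (hZc _ (hu b hb) _ (hQP (hu a ha).1)).eq]
        group
      intro y hy
      obtain ⟨w, hw, hw'⟩ := hsurj y hy
      have h1 : w⁻¹ * (d * w * d⁻¹) ∈ centralizer ({u} : Set G) := by
        rw [mem_cent, ← commutatorElement_eq_one_iff_mul_comm,
          hmul _ (P.inv_mem hw) _ ((hdP w).1 hw), hinv w hw]
        have h2 : ⁅d * w * d⁻¹, u⁆ = d * ⁅w, u⁆ * d⁻¹ := by
          conv_lhs => rw [← hud]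
          simp only [commutatorElement_def]; group
        rw [h2, ← mem_cent.1 (c1 (hu w hw))]
        group
      have h3 := (centralizer ({u} : Set G)).mul_mem h1
        ((centralizer ({u} : Set G)).inv_mem (hQu hw'))
      have h4 : w⁻¹ * (d * w * d⁻¹) * (y⁻¹ * (w⁻¹ * (d * w * d⁻¹)))⁻¹ = y := by group
      rw [h4] at h3
      exact mem_cent.1 h3
  -- class two: the power map is a homomorphism
  have hcomm : ∀ a ∈ P, ∀ b ∈ P, ⁅a, b⁆ ∈ Z := fun a ha b hb =>
    hQZ (hQ ▸ commutator_mem_commutator ha hb)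
  have hcp : ∀ a ∈ P, ∀ b ∈ P, ⁅a, b⁆ ^ p = 1 := by
    intro a ha b hb
    rw [← CF.Transfer.commutatorElement_pow_left' (hZc _ (hcomm a ha b hb) a ha),
      commutatorElement_eq_one_iff_mul_comm]
    exact (hZc _ (hQZ (hpow a ha)) b hb).symm.eq
  let π : P →* G :=
    { toFun := fun y => (y : G) ^ p
      map_one' := by simp
      map_mul' := fun a b => by
        rw [coe_mul, CF.Transfer.mul_pow_of_class_two (hZc _ (hcomm _ b.2 _ a.2) _ a.2)
          (hZc _ (hcomm _ b.2 _ a.2) _ b.2)]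
        obtain ⟨k, hk⟩ : p ∣ p.choose 2 := hp.dvd_choose_self (by norm_num)
          (lt_of_le_of_ne hp.two_le fun e => by rw [← e] at hodd; exact absurd hodd (by decide))
        rw [hk, pow_mul, hcp _ b.2 _ a.2, one_pow, mul_one] }
  by_contra hcon
  push Not at hcon
  have hk : π.ker = Q.subgroupOf P := by
    apply le_antisymm
    · intro y hy
      by_contra h
      exact hcon y y.2 h hy
    · have : Q ≤ π.ker.map P.subtype := by
        rw [← hQ, commutator_le]
        intro a ha b hb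
        exact ⟨⟨⁅a, b⁆, hQP (hcomm a ha b hb).1⟩, hcp a ha b hb, rfl⟩
      intro y hy
      obtain ⟨y', hy', e⟩ := this hy
      rwa [← Subtype.ext e]
  have h1 : Nat.card π.range = p ^ n := by
    rw [← index_ker, hk, ← hn]; rfl
  have h2 : π.range ≤ Z := by
    rintro _ ⟨y, rfl⟩
    exact hQZ (hpow y y.2)
  have h3 := card_le_of_le h2
  omega

end CF.OneNL
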