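import Cfsg.Prelude.Def_Blocks
import Cfsg.Agent.Char.OneNL
import Cfsg.Agent.Char.Kernel
import Cfsg.Agent.S0081
import Cfsg.Agent.Coprime.Thompson
import Cfsg.Agent.Fgs2.Zsigmondy
import Cfsg.Agent.Hyp.FTProof

/-! Solvability of a group whose derived subgroup is a normal subgroup plus one class (S4805). -/

set_option autoImplicit false

namespace CF.OneNL
open Subgroup
open scoped commutatorElement

variable {G : Type*} [Group G]

theorem fpf_surj [Finite G] {M : Subgroup G} {d : G} (hdM : ∀ m ∈ M, d * m * d⁻¹ ∈ M)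
    (hf : ∀ m ∈ M, d * m = m * d → m = 1) : ∀ m ∈ M, ∃ w ∈ M, m = w⁻¹ * (d * w * d⁻¹) := by
  let f : M → M := fun w => ⟨(w : G)⁻¹ * (d * w * d⁻¹), M.mul_mem (M.inv_mem w.2) (hdM _ w.2)⟩
  have hi : Function.Injective f := by
    intro a b hab
    have h1 : (a : G)⁻¹ * (d * a * d⁻¹) = (b : G)⁻¹ * (d * b * d⁻¹) := congrArg Subtype.val hab
    have h2 := hf (b * (a : G)⁻¹) (M.mul_mem b.2 (M.inv_mem a.2)) (by
      calc d * (b * (a : G)⁻¹) = b * ((b : G)⁻¹ * (d * b * d⁻¹)) * d * (a : G)⁻¹ := by group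
        _ = b * ((a : G)⁻¹ * (d * a * d⁻¹)) * d * (a : G)⁻¹ := by rw [h1]
        _ = b * (a : G)⁻¹ * d := by group)
    exact Subtype.ext (mul_inv_eq_one.1 h2).symm
  intro m hm
  obtain ⟨w, hw⟩ := Finite.injective_iff_surjective.1 hi ⟨m, hm⟩
  exact ⟨w, w.2, (congrArg Subtype.val hw).symm⟩

/-- If `H'` is abelian with one class of nonidentity elements, an element commuting with one of
them centralizes `H'`. -/
theorem cent_of_comm {H : Type*} [Group H] (hab : ∀ a ∈ commutator H, ∀ b ∈ commutator H,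
      a * b = b * a) (h1 : ∀ a ∈ commutator H, ∀ b ∈ commutator H, a ≠ 1 → b ≠ 1 → IsConj a b)
    {x m : H} (hm : m ∈ commutator H) (hm1 : m ≠ 1) (hx : x * m = m * x) :
    ∀ b ∈ commutator H, x * b = b * x := by
  intro b hb
  by_cases hb1 : b = 1
  · simp [hb1]
  obtain ⟨h, rfl⟩ := isConj_iff.1 (h1 m hm b hb hm1 hb1)
  have hw : ⁅x⁻¹, h⁻¹⁆ ∈ commutator H := commutator_mem_commutator (mem_top _) (mem_top _)
  have h2 := hab _ hw m hm
  have h3 : h⁻¹ * x * h = x * ⁅x⁻¹, h⁻¹⁆ := by simp only [commutatorElement_def]; group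
  calc x * (h * m * h⁻¹) = h * ((h⁻¹ * x * h) * m) * h⁻¹ := by group
    _ = h * (x * (⁅x⁻¹, h⁻¹⁆ * m)) * h⁻¹ := by rw [h3, mul_assoc x]
    _ = h * ((x * m) * ⁅x⁻¹, h⁻¹⁆) * h⁻¹ := by rw [h2, mul_assoc x]
    _ = h * (m * (x * ⁅x⁻¹, h⁻¹⁆)) * h⁻¹ := by rw [hx, mul_assoc m]
    _ = h * m * h⁻¹ * x := by rw [← h3]; group

/-- Seitz's argument: `H'` is self-centralizing. -/
theorem mem_of_cent {H : Type*} [Group H] [Finite H]
    (hab : ∀ a ∈ commutator H, ∀ b ∈ commutator H, a * b = b * a)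
    (h1 : ∀ a ∈ commutator H, ∀ b ∈ commutator H, a ≠ 1 → b ≠ 1 → IsConj a b)
    (h2 : ∀ x, x ∉ commutator H → ∀ m ∈ commutator H, IsConj x (x * m))
    {z : H} (hz : z ∈ commutator H) (hz2 : z * z ≠ 1) {x : H} (hx : x * z = z * x) :
    x ∈ commutator H := by
  have hz1 : z ≠ 1 := fun e => hz2 (by simp [e])
  have hx := cent_of_comm hab h1 hz hz1 hx
  obtain ⟨d, hd⟩ := isConj_iff.1 (h1 z hz z⁻¹ (inv_mem hz) hz1 (inv_ne_one.2 hz1))
  have hf : ∀ m ∈ commutator H, d * m = m * d → m = 1 := by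
    intro m hm hdm
    by_contra hm1
    have := cent_of_comm hab h1 hm hm1 hdm z hz
    rw [this, mul_inv_cancel_right] at hd
    exact hz2 (mul_eq_one_iff_eq_inv.2 hd)
  have hN : (commutator H).Normal := inferInstance
  have hu : ⁅x⁻¹, d⁆ ∈ commutator H := commutator_mem_commutator (mem_top _) (mem_top _)
  obtain ⟨w, hw, hw'⟩ := fpf_surj (fun m hm => hN.conj_mem m hm d) hf _ (inv_mem hu)
  have hdw := hN.conj_mem w hw d
  have hxd : d * (x * w) = x * w * d := by
    have e1 : d * x * d⁻¹ = x * ⁅x⁻¹, d⁆ := by simp only [commutatorElement_def]; group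
    have e2 : ⁅x⁻¹, d⁆ = (d * w * d⁻¹)⁻¹ * w := by
      rw [← inv_inv ⁅x⁻¹, d⁆, hw']; group
    calc d * (x * w) = (d * x * d⁻¹) * (d * w * d⁻¹) * d := by group
      _ = x * (((d * w * d⁻¹)⁻¹ * w) * (d * w * d⁻¹)) * d := by rw [e1, e2]; group
      _ = x * ((w * (d * w * d⁻¹)⁻¹) * (d * w * d⁻¹)) * d := by rw [hab _ (inv_mem hdw) w hw]
      _ = x * w * d := by group
  have hxc : ∀ b ∈ commutator H, x * w * b = b * (x * w) := by
    intro b hb
    rw [mul_assoc, hab w hw b hb, ← mul_assoc, hx b hb, mul_assoc]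
  have hcen : ∀ y, y * (x * w) * y⁻¹ = x * w := by
    intro y
    have hv : ⁅(x * w)⁻¹, y⁆ ∈ commutator H := commutator_mem_commutator (mem_top _) (mem_top _)
    have e1 : y * (x * w) * y⁻¹ = x * w * ⁅(x * w)⁻¹, y⁆ := by
      simp only [commutatorElement_def]; group
    have hw2 : ⁅d⁻¹, y⁻¹⁆ ∈ commutator H := commutator_mem_commutator (mem_top _) (mem_top _)
    have e2 : y⁻¹ * d * y = d * ⁅d⁻¹, y⁻¹⁆ := by simp only [commutatorElement_def]; group
    have e3 : d * (y * (x * w) * y⁻¹) = (y * (x * w) * y⁻¹) * d := by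
      calc d * (y * (x * w) * y⁻¹) = y * ((y⁻¹ * d * y) * (x * w)) * y⁻¹ := by group
        _ = y * (d * (⁅d⁻¹, y⁻¹⁆ * (x * w))) * y⁻¹ := by rw [e2, mul_assoc d]
        _ = y * ((d * (x * w)) * ⁅d⁻¹, y⁻¹⁆) * y⁻¹ := by rw [← hxc _ hw2, mul_assoc d]
        _ = y * ((x * w) * (d * ⁅d⁻¹, y⁻¹⁆)) * y⁻¹ := by rw [hxd, mul_assoc (x * w)]
        _ = (y * (x * w) * y⁻¹) * d := by rw [← e2]; group
    rw [e1] at e3 ⊢
    have e4 : d * ⁅(x * w)⁻¹, y⁆ = ⁅(x * w)⁻¹, y⁆ * d := by
      rw [← mul_assoc, hxd, mul_assoc, mul_assoc (x * w)] at e3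
      exact mul_left_cancel e3
    rw [hf _ hv e4, mul_one]
  by_contra hxM
  have hxw : x * w ∉ commutator H := fun h => hxM (by
    simpa using (commutator H).mul_mem h (inv_mem hw))
  obtain ⟨y, hy⟩ := isConj_iff.1 (h2 _ hxw z hz)
  rw [hcen y] at hy
  exact hz1 (left_eq_mul.1 hy)

theorem card_class_add [Finite G] {K M : Subgroup G} [K.Normal] [hM : M.Normal] (hKM : K ≤ M)
    {x : G} (hx : x ∈ M) (hxK : x ∉ K) (h : ∀ y ∈ M, y ∉ K → IsConj x y) :
    (centralizer ({x} : Set G)).index + Nat.card K = Nat.card M := by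
  rw [← CF.Char.card_class_eq_index]
  have e : {y : G | IsConj x y} = (M : Set G) \ K := by
    ext y
    constructor
    · intro hy
      obtain ⟨c, rfl⟩ := isConj_iff.1 hy
      refine ⟨hM.conj_mem x hx c, fun h' => hxK ?_⟩
      simpa [mul_assoc] using (inferInstance : K.Normal).conj_mem _ h' c⁻¹
    · exact fun hy => h y hy.1 hy.2
  have := Set.ncard_sdiff_add_ncard_of_subset (s := (K : Set G)) (t := (M : Set G)) hKM
  rw [← e] at this
  exact this

theorem hoc {a b : G} (h : IsConj a b) : orderOf a = orderOf b := by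
  obtain ⟨c, rfl⟩ := isConj_iff.1 h
  exact (CF.Transfer.orderOf_conj' c a).symm

set_option maxHeartbeats 400000 in
theorem isSolvable_of_class [Finite G] (K : Subgroup G) [hKn : K.Normal] (hKM : K ≤ commutator G)
    {g : G} (hg : g ∈ commutator G) (hgK : g ∉ K)
    (H1 : ∀ x ∈ commutator G, x ∉ K → IsConj g x)
    (H2 : ∀ x, x ∉ commutator G → ∀ m ∈ commutator G,
      IsConj (x : G ⧸ K) ((x * m : G) : G ⧸ K)) : Group.IsSolvable G := by
  set M := commutator G with hM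
  have hMn : M.Normal := inferInstance
  set f := QuotientGroup.mk' K with hf
  have hfs : Function.Surjective f := QuotientGroup.mk'_surjective K
  have hf1 : ∀ x, f x = 1 ↔ x ∈ K := fun x => QuotientGroup.eq_one_iff x
  have H1' : ∀ x ∈ M, x ∉ K → ∀ y ∈ M, y ∉ K → IsConj x y := fun x hx hxK y hy hyK =>
    (H1 x hx hxK).symm.trans (H1 y hy hyK)
  -- the prime
  obtain ⟨p, hp, hord⟩ : ∃ p : ℕ, p.Prime ∧ ∀ x ∈ M, x ∉ K → orderOf (f x) = p := by
    have h1 : orderOf (f g) ≠ 1 := fun e => hgK ((hf1 g).1 (orderOf_eq_one_iff.1 e))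
    obtain ⟨p, hp, hpd⟩ := Nat.exists_prime_and_dvd h1
    have h2 : orderOf (f (g ^ (orderOf (f g) / p))) = p := by
      rw [map_pow]; exact orderOf_pow_orderOf_div (orderOf_pos _).ne' hpd
    have h3 : g ^ (orderOf (f g) / p) ∉ K := fun h => by
      rw [(hf1 _).2 h, orderOf_one] at h2
      exact hp.one_lt.ne h2
    refine ⟨p, hp, fun x hx hxK => ?_⟩
    rw [← h2]
    exact hoc (f.map_isConj (H1' x hx hxK _ (M.pow_mem hg _) h3))
  have : Fact p.Prime := ⟨hp⟩
  have hpowK : ∀ x ∈ M, x ^ p ∈ K := by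
    intro x hx
    by_cases hxK : x ∈ K
    · exact K.pow_mem hxK p
    · rw [← hf1, map_pow, ← hord x hx hxK, pow_orderOf_eq_one]
  -- elements of `M \ K` are `p`-elements
  obtain ⟨j, hj⟩ : ∃ j, ∀ x ∈ M, x ∉ K → orderOf x = p ^ j := by
    obtain ⟨y, hy, ⟨j, hj⟩, hfy⟩ := CF.Transfer.exists_pElt_lift (p := p) f (x := g)
      (isOfFinOrder_of_finite g) (k := 1) (by rw [hord g hg hgK, pow_one])
    have hyM : y ∈ M := zpowers_le.2 hg hy
    have hyK : y ∉ K := fun h => hgK ((hf1 g).1 (by rw [← hfy]; exact (hf1 y).2 h))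
    exact ⟨j, fun x hx hxK => (hoc (H1' x hx hxK y hyM hyK)).trans hj⟩
  obtain ⟨P, hgP⟩ := (IsPGroup.of_card (G := zpowers g) (p := p) (n := j)
    (by rw [Nat.card_zpowers, hj g hg hgK])).exists_le_sylow
  have hgP : g ∈ (P : Subgroup G) := hgP (mem_zpowers g)
  have hPp : IsPGroup p (P : Subgroup G) := P.isPGroup'
  have hA1 : ⁅(P : Subgroup G) ⊓ M, (P : Subgroup G)⁆ ≤ (P : Subgroup G) :=
    (commutator_mono inf_le_left le_rfl).trans (commutator_le_self (P : Subgroup G))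
  have hA2 : ⁅(P : Subgroup G) ⊓ M, (P : Subgroup G)⁆ ≤ M :=
    (commutator_mono inf_le_right le_rfl).trans (commutator_le_left M (P : Subgroup G))
  obtain ⟨z, hzPM, hzK, hzc⟩ := exists_central_mod (B := K) hPp
    inf_le_left (le_inf hA1 hA2) (fun h => hgK (h ⟨hgP, hg⟩))
  have hzP : z ∈ (P : Subgroup G) := hzPM.1
  have hzM : z ∈ M := hzPM.2
  -- centralizer orders
  have hcnt : ∀ x ∈ M, x ∉ K → Nat.card (centralizer ({x} : Set G)) * (K.relIndex M - 1) =
      K.index := by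
    intro x hx hxK
    have h1 := card_class_add hKM hx hxK (H1' x hx hxK)
    have h2 := CF.Solv.card_mul_relIndex hKM
    have h3 := (centralizer ({x} : Set G)).card_mul_index
    have h4 := K.card_mul_index
    have h5 : (centralizer ({x} : Set G)).index = Nat.card K * (K.relIndex M - 1) := by
      rw [Nat.mul_sub, mul_one]; omega
    refine Nat.eq_of_mul_eq_mul_left (Nat.card_pos (α := K)) ?_
    rw [h4, ← h3, h5]; ring
  have hcP : ∀ x ∈ M, x ∉ K →
      Nat.card ((P : Subgroup G) ⊓ centralizer ({x} : Set G) : Subgroup G) ≤ K.relIndex P := by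
    intro x hx hxK
    obtain ⟨i, hi⟩ := IsPGroup.iff_card.1
      (hPp.to_le (inf_le_left : (P : Subgroup G) ⊓ centralizer ({x} : Set G) ≤ P))
    have h1 : p ^ i ∣ Nat.card (G ⧸ K) := by
      rw [← hi, ← index_eq_card, ← hcnt x hx hxK]
      exact (card_dvd_of_le inf_le_right).mul_right _
    have h2 := (P.mapSurjective hfs).pow_dvd_card_of_pow_dvd_card h1
    rw [Sylow.coe_mapSurjective, ← relIndex_ker, QuotientGroup.ker_mk'] at h2
    rw [hi]
    exact Nat.le_of_dvd (Nat.pos_of_ne_zero (by unfold relIndex; exact index_ne_zero_of_finite)) h2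
  have hQ : K ⊓ (P : Subgroup G) ≤ ⁅(P : Subgroup G), (P : Subgroup G)⁆ := by
    have h1 : Nat.card (P : Subgroup G) ≤
        Nat.card (⁅(P : Subgroup G), (P : Subgroup G)⁆ ⊓ (K ⊓ P) : Subgroup G) *
          Nat.card ((P : Subgroup G) ⊓ centralizer ({z} : Set G) : Subgroup G) :=
      card_le_of_comm fun y hy => ⟨commutator_mem_commutator hy hzP, hzc y hy,
        commutator_le_self _ (commutator_mem_commutator hy hzP)⟩
    have h2 := CF.Solv.card_inf_mul_relIndex K (P : Subgroup G)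
    have h3 := h1.trans (Nat.mul_le_mul_left _ (hcP z hzM hzK))
    rw [← h2] at h3
    have h4 := Nat.le_of_mul_le_mul_right h3
      (Nat.pos_of_ne_zero (by unfold relIndex; exact index_ne_zero_of_finite))
    have h5 := eq_of_le_of_card_ge
      (inf_le_right : ⁅(P : Subgroup G), (P : Subgroup G)⁆ ⊓ (K ⊓ P) ≤ K ⊓ P) h4
    rw [← h5]; exact inf_le_left
  have hT := Cfsg.Agent.S0081.result P K (hQ.trans (CF.Transfer.commutator_le_frat hPp))
  set L := CF.Transfer.pRes p K with hL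
  have hLc : (Nat.card L).Coprime p := CF.Transfer.hasNPC_subgroup_iff_coprime.1 hT
  have hLK : L ≤ K := CF.Transfer.pRes_le K
  have hML : CF.Transfer.pRes p M ≤ L := by
    rw [CF.Transfer.pRes_le_iff]
    intro x hx hxc
    refine CF.Transfer.mem_pRes_of_coprime ?_ hxc
    by_contra hxK
    exact hxK (by rw [CF.Transfer.eq_one_of_pElt_of_coprime (hj x hx hxK) hxc]; exact K.one_mem)
  suffices hsol : Group.IsSolvable L by
    obtain ⟨k, hk⟩ := CF.Transfer.relIndex_of_pRes_le hML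
    have h1 : Group.IsSolvable (L.subgroupOf M) :=
      Group.isSolvable_of_isSolvable_injective (f := (subgroupOfEquivOfLe (hLK.trans hKM)).toMonoidHom)
        (MulEquiv.injective _)
    have h2 : IsPGroup p (M ⧸ L.subgroupOf M) := IsPGroup.of_card hk
    have h3 := h2.isNilpotent
    have h4 : Group.IsSolvable M := CF.Solv.isSolvable_of_normal_of_quotient (L.subgroupOf M)
    have h5 : Group.IsSolvable (G ⧸ M) := Group.isSolvable_of_comm fun a b =>
      mul_comm (G := Abelianization G) a b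
    exact CF.Solv.isSolvable_of_normal_of_quotient M
  rcases hp.eq_two_or_odd' with h2 | hodd
  · subst h2
    exact CF.Hyp.isSolvable_of_odd (Nat.coprime_two_right.1 hLc)
  -- `p` odd
  have hMb : M.map f = commutator (G ⧸ K) := by
    rw [hM, commutator_def, map_commutator, map_top_of_surjective _ hfs, commutator_def]
  have hMb' : ∀ x, f x ∈ commutator (G ⧸ K) ↔ x ∈ M := by
    intro x
    rw [← hMb, ← mem_comap, comap_map_eq, QuotientGroup.ker_mk', sup_eq_left.2 hKM]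
  have hMp : IsPGroup p (commutator (G ⧸ K)) := by
    refine CF.Solv.isPGroup_of_forall_pow_eq_one fun a ha => ?_
    obtain ⟨x, rfl⟩ := hfs a
    rw [← map_pow, hf1]; exact hpowK x ((hMb' x).1 ha)
  have hMP : commutator (G ⧸ K) ≤ (P : Subgroup G).map f := by
    rw [← Sylow.coe_mapSurjective hfs]
    exact hMp.le_sylow_of_normal _
  have hzf : ∀ y ∈ (P : Subgroup G), f y * f z = f z * f y := fun y hy => by
    rw [← commutatorElement_eq_one_iff_mul_comm, ← map_commutatorElement, hf1]; exact hzc y hy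
  have hc1 : ∀ a ∈ commutator (G ⧸ K), ∀ b ∈ commutator (G ⧸ K), a ≠ 1 → b ≠ 1 → IsConj a b := by
    intro a ha b hb ha1 hb1
    obtain ⟨x, rfl⟩ := hfs a
    obtain ⟨y, rfl⟩ := hfs b
    exact f.map_isConj (H1' x ((hMb' x).1 ha) (fun h => ha1 ((hf1 x).2 h)) y ((hMb' y).1 hb)
      (fun h => hb1 ((hf1 y).2 h)))
  have hz1 : f z ≠ 1 := fun h => hzK ((hf1 z).1 h)
  have hab : ∀ a ∈ commutator (G ⧸ K), ∀ b ∈ commutator (G ⧸ K), a * b = b * a := by
    intro a ha b hb
    by_cases ha1 : a = 1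
    · simp [ha1]
    obtain ⟨c, rfl⟩ := isConj_iff.1 (hc1 _ ((hMb' z).2 hzM) a ha hz1 ha1)
    have hb' : c⁻¹ * b * c ∈ commutator (G ⧸ K) := by
      simpa using (inferInstance : (commutator (G ⧸ K)).Normal).conj_mem b hb c⁻¹
    obtain ⟨y, hy, e⟩ := hMP hb'
    have := hzf y hy
    rw [e] at this
    calc c * f z * c⁻¹ * b = c * (f z * (c⁻¹ * b * c)) * c⁻¹ := by group
      _ = c * (c⁻¹ * b * c * f z) * c⁻¹ := by rw [this]
      _ = b * (c * f z * c⁻¹) := by group
  have hc2 : ∀ x, x ∉ commutator (G ⧸ K) → ∀ m ∈ commutator (G ⧸ K), IsConj x (x * m) := by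
    intro a ha b hb
    obtain ⟨x, rfl⟩ := hfs a
    obtain ⟨y, rfl⟩ := hfs b
    exact H2 x (fun h => ha ((hMb' x).2 h)) y ((hMb' y).1 hb)
  have hsq : ∀ a ∈ commutator (G ⧸ K), a ≠ 1 → a * a ≠ 1 := by
    intro a ha ha1 e
    obtain ⟨x, rfl⟩ := hfs a
    have h1 := hord x ((hMb' x).1 ha) (fun h => ha1 ((hf1 x).2 h))
    have h2 : p ∣ 2 := h1 ▸ orderOf_dvd_of_pow_eq_one (by rw [pow_two, e])
    rw [(Nat.prime_dvd_prime_iff_eq hp Nat.prime_two).1 h2] at hodd
    exact absurd hodd (by decide)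
  have hPM : (P : Subgroup G) ≤ M := fun y hy =>
    (hMb' y).1 (mem_of_cent hab hc1 hc2 ((hMb' z).2 hzM) (hsq _ ((hMb' z).2 hzM) hz1) (hzf y hy))
  have hQ' : ⁅(P : Subgroup G), (P : Subgroup G)⁆ = K ⊓ (P : Subgroup G) := by
    refine le_antisymm (le_inf ?_ (commutator_le_self _)) hQ
    rw [commutator_le]
    intro a ha b hb
    rw [← hf1, map_commutatorElement, commutatorElement_eq_one_iff_mul_comm]
    exact hab _ ((hMb' a).2 (hPM ha)) _ ((hMb' b).2 (hPM hb))
  have hq : K.relIndex M = K.relIndex P := by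
    rw [← QuotientGroup.ker_mk' K, relIndex_ker, relIndex_ker, ← hf,
      le_antisymm (map_mono hPM) (hMb ▸ hMP)]
  obtain ⟨n, hn⟩ : ∃ n, K.relIndex P = p ^ n := by
    obtain ⟨k, hk⟩ := IsPGroup.iff_card.1 hPp
    obtain ⟨n, -, hn⟩ := (Nat.dvd_prime_pow hp).1 (hk ▸ relIndex_dvd_card K (P : Subgroup G))
    exact ⟨n, hn⟩
  obtain ⟨x, hxP, hxQ, hxp⟩ := exists_pow_eq_one (n := n) hodd hPp hQ'
    (fun h => hgK (h hgP).1) (fun y hy => ⟨hpowK y (hPM hy), pow_mem hy p⟩)
    (by rw [inf_relIndex_right, hn])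
    (fun x hx hxQ => hn ▸ hcP x (hPM hx) fun h => hxQ ⟨h, hx⟩) (by
      rcases le_or_gt n 2 with h | h
      · exact Or.inl h
      right
      obtain ⟨l, hl, hld, hz⟩ := CF.Fgs2.zsigmondy (a := p) (n := n) hp.two_le (by omega)
        (fun e => by rw [e.1] at hodd; exact absurd hodd (by decide)) (by omega)
      have : Fact l.Prime := ⟨hl⟩
      have hlp : l ≠ p := by
        rintro rfl
        have h1 : l ∣ l ^ n := dvd_pow_self l (by omega)
        have h2 := (Nat.dvd_sub h1 hld)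
        rw [Nat.sub_sub_self (Nat.one_le_pow _ _ hl.pos)] at h2
        exact hl.one_lt.ne' (Nat.dvd_one.1 h2)
      have h1 : l ∣ Nat.card (G ⧸ M) := by
        have h2 := hcnt g hg hgK
        rw [← relIndex_mul_index hKM, hq, hn] at h2
        have h3 : l ∣ p ^ n * M.index := h2 ▸ hld.mul_left _
        refine (hl.dvd_mul.1 h3).resolve_left fun h4 => hlp ?_
        exact (Nat.prime_dvd_prime_iff_eq hl hp).1 (hl.dvd_of_dvd_pow h4)
      obtain ⟨e, he⟩ := exists_prime_orderOf_dvd_card' l h1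
      obtain ⟨y, rfl⟩ := QuotientGroup.mk'_surjective M e
      have h2 : y ∈ normalizer ((P : Subgroup G) : Set G) ⊔ M := by
        exact (Sylow.normalizer_sup_eq_top' P hPM).ge (mem_top y)
      obtain ⟨n0, hn0, m, hm, rfl⟩ := mem_sup_of_normal_right.1 h2
      have hM1 : ∀ x ∈ M, QuotientGroup.mk' M x = 1 := fun x hx => (QuotientGroup.eq_one_iff x).2 hx
      rw [map_mul, hM1 m hm, mul_one] at he
      obtain ⟨d, hd, ⟨b, hb⟩, hdf⟩ := CF.Transfer.exists_pElt_lift (p := l) (QuotientGroup.mk' M)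
        (isOfFinOrder_of_finite n0) (k := 1) (by rw [he, pow_one])
      have hdM : d ∉ M := fun h => by
        rw [← hdf, hM1 d h, orderOf_one] at he
        exact hl.one_lt.ne he
      refine ⟨l, b, d, hl, hlp, hz, hb, zpowers_le.2 hn0 hd, fun y hy => ?_⟩
      obtain ⟨w, hw, e⟩ := fpf_surj (M := commutator (G ⧸ K)) (d := f d)
        (fun m hm => (inferInstance : (commutator (G ⧸ K)).Normal).conj_mem m hm _)
        (fun m hm hdm => by
          by_contra hm1
          exact hdM ((hMb' d).1 (mem_of_cent hab hc1 hc2 hm (hsq m hm hm1) hdm)))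
        (f y) ((hMb' y).2 (hPM hy))
      obtain ⟨w, hwP, rfl⟩ := hMP hw
      refine ⟨w, hwP, mem_inf.2 ⟨(hf1 _).1 ?_, mul_mem (inv_mem hy) (mul_mem (inv_mem hwP)
        ((mem_normalizer_iff.1 (zpowers_le.2 hn0 hd) w).1 hwP))⟩⟩
      simp only [map_mul, map_inv]
      rw [← e, inv_mul_cancel])
  have hxK : x ∉ K := fun h => hxQ ⟨h, hxP⟩
  have hnil := CF.Coprime.isNilpotent_of_fpf L hp hxp (le_normalizer_of_normal (mem_top x)) (by
    rw [eq_bot_iff]
    rintro u ⟨huL, hu⟩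
    have hu : Commute u x := mem_cent.1 hu
    have h1 : u * x ∉ K := fun h => hxK (by simpa using K.mul_mem (K.inv_mem (hLK huL)) h)
    have h2 := hj _ (M.mul_mem (hKM (hLK huL)) (hPM hxP)) h1
    have h3 : (u * x) ^ (p ^ j) = 1 := h2 ▸ pow_orderOf_eq_one _
    rw [hu.mul_pow, ← hj x (hPM hxP) hxK, pow_orderOf_eq_one, mul_one, hj x (hPM hxP) hxK] at h3
    obtain ⟨i, -, hi⟩ := (Nat.dvd_prime_pow hp).1 (orderOf_dvd_of_pow_eq_one h3)
    exact CF.Transfer.eq_one_of_pElt_of_coprime hi (CF.Transfer.coprime_orderOf_of_mem hLc huL))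
  infer_instance


open CF.Char Cfsg
open scoped ComplexConjugate

theorem charDegree_eq_one_iff (ψ : IrrCharacter G) :
    charDegree (ψ : G → ℂ) = 1 ↔ (ψ : G → ℂ) 1 = 1 := by
  obtain ⟨n, -, hn⟩ := irr_one_eq_nat ψ.2
  unfold charDegree
  rw [hn]
  simp

/-- Sum over the linear characters. -/
theorem sum_linear [Finite G] [DecidablePred fun ψ : IrrCharacter G => (ψ : G → ℂ) 1 = 1]
    (x y : G) [Decidable ((x : G ⧸ commutator G) = y)] :
    ∑ ψ ∈ Finset.univ.filter (fun ψ : IrrCharacter G => (ψ : G → ℂ) 1 = 1),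
      (ψ : G → ℂ) x * conj ((ψ : G → ℂ) y) =
      if (x : G ⧸ commutator G) = y then ((commutator G).index : ℂ) else 0 := by
  classical
  have h1 := sum_irr_filter_le_charKer (commutator G) (fun ψ : G → ℂ => ψ x * conj (ψ y))
  have h2 : Finset.univ.filter (fun ψ : IrrCharacter G => (ψ : G → ℂ) 1 = 1) =
      Finset.univ.filter (fun ψ : IrrCharacter G => commutator G ≤ charKer (ψ : G → ℂ)) :=
    Finset.filter_congr fun ψ _ => irr_one_eq_one_iff ψ.2
  rw [h2, h1, sum_irr_mul_conj]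
  have hc : ∀ a b : G ⧸ commutator G, a * b = b * a := fun a b =>
    mul_comm (G := Abelianization G) a b
  have h3 : IsConj (x : G ⧸ commutator G) y ↔ (x : G ⧸ commutator G) = y := by
    constructor
    · intro h
      obtain ⟨c, hc'⟩ := isConj_iff.1 h
      rw [← hc', hc c, mul_inv_cancel_right]
    · intro h; rw [h]
  have h4 : centralizer ({(x : G ⧸ commutator G)} : Set (G ⧸ commutator G)) = ⊤ :=
    eq_top_iff.2 fun a _ => mem_cent.2 (hc _ _)
  by_cases h : (x : G ⧸ commutator G) = y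
  · rw [if_pos (h3.2 h), if_pos h, h4, card_top, index_eq_card]
  · rw [if_neg (fun e => h (h3.1 e)), if_neg h]

/-- Column orthogonality when only one nonlinear character can be nonzero at `x`. -/
theorem orth_one [Finite G] (χ : IrrCharacter G) (hχ1 : (χ : G → ℂ) 1 ≠ 1) {x : G}
    (hx : ∀ ψ : IrrCharacter G, (ψ : G → ℂ) 1 ≠ 1 → ψ ≠ χ → (ψ : G → ℂ) x = 0) (y : G)
    (hxy : ¬ IsConj x y) [Decidable ((x : G ⧸ commutator G) = y)] :
    (if (x : G ⧸ commutator G) = y then ((commutator G).index : ℂ) else 0) +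
      (χ : G → ℂ) x * conj ((χ : G → ℂ) y) = 0 := by
  classical
  have h1 := sum_irr_mul_conj_of_not_isConj hxy
  rw [← Finset.sum_filter_add_sum_filter_not _ (fun ψ : IrrCharacter G => (ψ : G → ℂ) 1 = 1),
    sum_linear, Finset.sum_eq_single_of_mem χ (by simpa using hχ1) (fun ψ hψ hne => by
      rw [hx ψ (by simpa using hψ) hne, zero_mul])] at h1
  exact h1

theorem main [Finite G] (g : G) (hg : g ∉ center G) (χ : IrrCharacter G)
    (hχ1 : charDegree (χ : G → ℂ) ≠ 1) (hχg : (χ : G → ℂ) g ≠ 0)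
    (hother : ∀ ψ : IrrCharacter G, charDegree (ψ : G → ℂ) ≠ 1 → ψ ≠ χ → (ψ : G → ℂ) g = 0) :
    g ∈ commutator G ∧ (χ : G → ℂ) g = -(((commutator G).index : ℂ) / (χ : G → ℂ) 1) ∧
    ((commutator G : Set G) = {x : G | (χ : G → ℂ) x = (χ : G → ℂ) 1} ∪ {h : G | IsConj g h}) ∧
    (∀ x : G, x ∉ commutator G → (χ : G → ℂ) x = 0) ∧
    (∀ ψ : IrrCharacter G, charDegree (ψ : G → ℂ) ≠ 1 →
      (∀ x : G, (χ : G → ℂ) x = (χ : G → ℂ) 1 → (ψ : G → ℂ) x = (ψ : G → ℂ) 1) → ψ = χ) ∧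
    Group.IsSolvable G := by
  classical
  have hχ1' : (χ : G → ℂ) 1 ≠ 1 := fun h => hχ1 ((charDegree_eq_one_iff χ).2 h)
  have hoth : ∀ ψ : IrrCharacter G, (ψ : G → ℂ) 1 ≠ 1 → ψ ≠ χ → (ψ : G → ℂ) g = 0 :=
    fun ψ h => hother ψ fun e => h ((charDegree_eq_one_iff ψ).1 e)
  have hM : (commutator G).Normal := inferInstance
  have hf0 : (χ : G → ℂ) 1 ≠ 0 := irr_one_ne_zero χ.2
  have ha0 : ((commutator G).index : ℂ) ≠ 0 := Nat.cast_ne_zero.2 index_ne_zero_of_finite
  have hg1 : ¬ IsConj g 1 := fun h => hg (by rw [isConj_one_left.1 h]; exact one_mem _)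
  have h1 := orth_one χ hχ1' hoth 1 hg1
  rw [irr_conj_one χ.2] at h1
  have hgM : g ∈ commutator G := by
    by_contra h
    rw [if_neg (show ¬ (g : G ⧸ commutator G) = ((1 : G) : G ⧸ commutator G) from
      fun e => h ((QuotientGroup.eq_one_iff g).1 e)), zero_add] at h1
    exact mul_ne_zero hχg hf0 h1
  rw [if_pos (show (g : G ⧸ commutator G) = ((1 : G) : G ⧸ commutator G) from
    (QuotientGroup.eq_one_iff g).2 hgM)] at h1
  have hval : (χ : G → ℂ) g = -(((commutator G).index : ℂ) / (χ : G → ℂ) 1) := by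
    field_simp; linear_combination h1
  have hconjM : ∀ x, IsConj g x → x ∈ commutator G := fun x h => by
    obtain ⟨c, rfl⟩ := isConj_iff.1 h
    exact hM.conj_mem g hgM c
  have hout : ∀ x : G, x ∉ commutator G → (χ : G → ℂ) x = 0 := by
    intro x hx
    have h2 := orth_one χ hχ1' hoth x fun h => hx (hconjM x h)
    rw [if_neg (fun e => hx ((QuotientGroup.eq_one_iff x).1
      (e.symm.trans ((QuotientGroup.eq_one_iff g).2 hgM)))), zero_add] at h2
    simpa using (mul_eq_zero.1 h2).resolve_left hχg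
  have hin : ∀ x ∈ commutator G, ¬ IsConj g x → (χ : G → ℂ) x = (χ : G → ℂ) 1 := by
    intro x hx hgx
    have h2 := orth_one χ hχ1' hoth x hgx
    rw [if_pos (((QuotientGroup.eq_one_iff g).2 hgM).trans
      ((QuotientGroup.eq_one_iff x).2 hx).symm)] at h2
    have h3 : conj ((χ : G → ℂ) x) = (χ : G → ℂ) 1 :=
      mul_left_cancel₀ hχg (by linear_combination h2 - h1)
    rw [← irr_conj_one χ.2, ← h3, Complex.conj_conj]
  have hKM : ∀ x, (χ : G → ℂ) x = (χ : G → ℂ) 1 → x ∈ commutator G := fun x hx => by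
    by_contra h
    exact hf0 (hx ▸ hout x h)
  have hgK : (χ : G → ℂ) g ≠ (χ : G → ℂ) 1 := by
    intro e
    obtain ⟨n, hn0, hn⟩ := irr_one_eq_nat χ.2
    rw [e, hn] at h1
    have h2 : (commutator G).index + n * n = 0 := by exact_mod_cast h1
    have := Nat.mul_pos hn0 hn0
    omega
  have huniq : ∀ ψ : IrrCharacter G, (ψ : G → ℂ) 1 ≠ 1 →
      (∀ x : G, (χ : G → ℂ) x = (χ : G → ℂ) 1 → (ψ : G → ℂ) x = (ψ : G → ℂ) 1) → ψ = χ := by
    intro ψ hψ hk
    by_contra hne
    have := Fintype.ofFinite (commutator G)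
    refine hψ ((irr_one_eq_one_iff ψ.2).2 (le_charKer_of_sum_ne_zero ψ.2 _ ?_))
    obtain ⟨n, hn0, hn⟩ := irr_one_eq_nat ψ.2
    have h2 : ∀ x : commutator G, (ψ : G → ℂ) x =
        ((if IsConj g x then 0 else n : ℕ) : ℂ) := by
      intro x
      split_ifs with h
      · rw [← (isConj_iff_irr_eq g x).1 h ψ, hoth ψ hψ hne, Nat.cast_zero]
      · rw [hk x (hin x x.2 h), hn]
    rw [Finset.sum_congr rfl fun x _ => h2 x, ← Nat.cast_sum, Nat.cast_ne_zero]
    intro e
    have h3 := (Finset.sum_eq_zero_iff.1 e) 1 (Finset.mem_univ _)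
    rw [if_neg (show ¬ IsConj g ((1 : commutator G) : G) from hg1)] at h3
    omega
  have hker : ∀ x, x ∈ charKer (χ : G → ℂ) ↔ (χ : G → ℂ) x = (χ : G → ℂ) 1 :=
    fun x => mem_charKer_iff (irr_isCharacter χ.2)
  have hKn : (charKer (χ : G → ℂ)).Normal := charKer_normal (irr_isClassFunction χ.2)
  refine ⟨hgM, hval, ?_, hout, fun ψ h => huniq ψ fun e => h ((charDegree_eq_one_iff ψ).2 e),
    isSolvable_of_class (charKer (χ : G → ℂ)) (fun x hx => hKM x ((hker x).1 hx)) hgM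
      (fun h => hgK ((hker g).1 h)) (fun x hx hxK => ?_) (fun x hx m hm => ?_)⟩
  · ext x
    constructor
    · intro hx
      by_cases h : IsConj g x
      · exact Or.inr h
      · exact Or.inl (hin x hx h)
    · rintro (h | h)
      · exact hKM x h
      · exact hconjM x h
  · by_contra h
    exact hxK ((hker x).2 (hin x hx h))
  · rw [isConj_iff_irr_eq]
    intro φ
    let ψ : IrrCharacter G := ⟨fun y : G => (φ : G ⧸ charKer (χ : G → ℂ) → ℂ) y,
      irr_inflate _ φ.2⟩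
    change (ψ : G → ℂ) x = (ψ : G → ℂ) (x * m)
    by_cases h : (ψ : G → ℂ) 1 = 1
    · have := (mem_charKer_iff (irr_isCharacter ψ.2)).1 ((irr_one_eq_one_iff ψ.2).1 h hm)
      exact (char_mul_of_eq_one' (irr_isCharacter ψ.2) this x).symm
    · have e : ψ = χ := huniq ψ h fun y hy =>
        (mem_charKer_iff (irr_isCharacter ψ.2)).1 (le_charKer_inflate _ _ ((hker y).2 hy))
      rw [e, hout x hx, hout (x * m) fun h' => hx (by
        simpa using (commutator G).mul_mem h' (inv_mem hm))]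

end CF.OneNL
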