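import Cfsg.Prelude.Def_DegreeGraph
import Cfsg.Agent.Char.Integral
import Cfsg.Agent.Char.Kernel
import Cfsg.Agent.Clifford.Basic
import Cfsg.Agent.Solv.Basic

/-! A group whose character degrees involve at most two primes is solvable (Burnside's
argument). -/

set_option autoImplicit false

namespace CF.TwoPr
open Cfsg CF.Char Subgroup

universe u
variable {G : Type*} [Group G]

theorem mem_degreePrimes {r : ℕ} : r ∈ degreePrimes G ↔
    r.Prime ∧ ∃ (χ : G → ℂ) (n : ℕ), IsIrrCharacter G χ ∧ χ 1 = n ∧ r ∣ n := by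
  constructor
  · rintro ⟨hr, d, ⟨χ, rfl⟩, hd⟩
    obtain ⟨n, -, hn⟩ := irr_one_eq_nat χ.2
    refine ⟨hr, χ, n, χ.2, hn, ?_⟩
    simpa [charDegree, hn] using hd
  · rintro ⟨hr, χ, n, hχ, hn, hd⟩
    exact ⟨hr, n, ⟨⟨χ, hχ⟩, by simp [charDegree, hn]⟩, hd⟩

theorem exists_over_dvd [Finite G] (N : Subgroup G) [N.Normal] {θ : N → ℂ}
    (hθ : IsIrrCharacter N θ) {n : ℕ} (hn : θ 1 = n) :
    ∃ (χ : G → ℂ) (m : ℕ), IsIrrCharacter G χ ∧ χ 1 = m ∧ n ∣ m := by
  have := Fintype.ofFinite G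
  have := Fintype.ofFinite N
  obtain ⟨χ, hχ, h⟩ := CF.Char.exists_irr_over N hθ
  have h1 := (CF.Clifford.NormalEmb.sub N).clifford_one hχ hθ h
  obtain ⟨e, he⟩ := inner_char_eq_nat (char_restrict (irr_isCharacter hχ) N) (irr_isCharacter hθ)
  refine ⟨χ, e * (((CF.Clifford.NormalEmb.sub N).inertia θ).index * n), hχ, ?_,
    (Dvd.intro_left _ rfl).mul_left _⟩
  rw [h1, hn]
  push_cast
  rw [← he]; rfl

theorem degreePrimes_normal [Finite G] (N : Subgroup G) [N.Normal] :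
    degreePrimes N ⊆ degreePrimes G := by
  intro r hr
  obtain ⟨hr, θ, n, hθ, hn, hd⟩ := mem_degreePrimes.1 hr
  obtain ⟨χ, m, hχ, hm, h⟩ := exists_over_dvd N hθ hn
  exact mem_degreePrimes.2 ⟨hr, χ, m, hχ, hm, hd.trans h⟩

theorem degreePrimes_quotient (N : Subgroup G) [N.Normal] :
    degreePrimes (G ⧸ N) ⊆ degreePrimes G := by
  intro r hr
  obtain ⟨hr, θ, n, hθ, hn, hd⟩ := mem_degreePrimes.1 hr
  exact mem_degreePrimes.2 ⟨hr, _, n, irr_inflate N hθ, hn, hd⟩

theorem exists_center_sylow [Finite G] {p : ℕ} (hp : p.Prime) (hd : p ∣ Nat.card G) :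
    ∃ g : G, g ≠ 1 ∧ ¬ p ∣ (centralizer ({g} : Set G)).index := by
  have : Fact p.Prime := ⟨hp⟩
  obtain ⟨P⟩ : Nonempty (Sylow p G) := inferInstance
  have : Nontrivial (P : Subgroup G) := Finite.one_lt_card_iff_nontrivial.1
    (lt_of_lt_of_le hp.one_lt (Nat.le_of_dvd Nat.card_pos (P.dvd_card_of_dvd_card hd)))
  have := P.isPGroup'.center_nontrivial
  obtain ⟨z, hz⟩ := exists_ne (1 : center (P : Subgroup G))
  refine ⟨z.1.1, fun e => hz (Subtype.ext (Subtype.ext e)), fun h => P.not_dvd_index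
    (h.trans (index_dvd_of_le fun y hy => ?_))⟩
  rw [mem_centralizer_iff]
  rintro _ rfl
  exact (congrArg Subtype.val (mem_center_iff.1 z.2 ⟨y, hy⟩)).symm

/-- Burnside's argument: in a nonabelian simple group, for `p ∣ |G|` and any prime `q`, some
character degree prime to `q` has a prime divisor other than `p`. -/
theorem simple_aux [Finite G] [IsSimpleGroup G] (hna : center G ≠ ⊤) {p q : ℕ} (hp : p.Prime)
    (hq : q.Prime) (hd : p ∣ Nat.card G) : ∃ (χ : G → ℂ) (n r : ℕ), IsIrrCharacter G χ ∧ χ 1 = n ∧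
      ¬ q ∣ n ∧ r.Prime ∧ r ∣ n ∧ r ≠ p := by
  obtain ⟨g, hg, hi⟩ := exists_center_sylow hp hd
  obtain ⟨χ, n, hχ, h1, hn, hqn, hχg⟩ := exists_irr_not_dvd_ne_zero hq hg
  by_contra hcon
  push Not at hcon
  have hc : n.Coprime (centralizer ({g} : Set G)).index :=
    Nat.coprime_of_dvd fun r hr h1 h2 => hi (hcon χ n r hχ hn hqn hr h1 ▸ h2)
  have h2 := (irr_eq_zero_or_mem_charCenter hχ hn g hc).resolve_left hχg
  rw [charCenter_eq_center_of_faithful hχ (charKer_eq_bot_of_simple hχ h1)] at h2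
  rcases (inferInstance : (center G).Normal).eq_bot_or_eq_top with h | h
  · rw [h] at h2; exact hg h2
  · exact hna h

theorem isSolvable_of_subset {p q : ℕ} (hp : p.Prime) (hq : q.Prime) (G : Type u) [Group G]
    [Finite G] : degreePrimes G ⊆ {p, q} → Group.IsSolvable G := by
  refine CF.Solv.group_induction
    (P := fun G _ _ => degreePrimes G ⊆ {p, q} → Group.IsSolvable G) ?_ G
  intro G _ _ ih h
  by_cases hs : IsSimpleGroup G
  · by_cases hna : center G = ⊤
    · exact Group.isSolvable_of_comm fun a b => mem_center_iff.1 (hna.ge (mem_top b)) a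
    have key : ∀ p q : ℕ, p.Prime → q.Prime → degreePrimes G ⊆ {p, q} → ¬ p ∣ Nat.card G := by
      intro p q hp hq h hd
      obtain ⟨χ, n, r, hχ, hn, hqn, hr, hrn, hrp⟩ := simple_aux hna hp hq hd
      rcases h (mem_degreePrimes.2 ⟨hr, χ, n, hχ, hn, hrn⟩) with e | e
      · exact hrp e
      · exact hqn (e ▸ hrn)
    obtain ⟨s, hs, hsd⟩ := Nat.exists_prime_and_dvd (Finite.one_lt_card (α := G)).ne'
    obtain ⟨χ, n, r, hχ, hn, hqn, hr, hrn, hrp⟩ := simple_aux hna hs hq hsd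
    exfalso
    rcases h (mem_degreePrimes.2 ⟨hr, χ, n, hχ, hn, hrn⟩) with e | e
    · exact key p q hp hq h (e ▸ hrn.trans (irr_one_dvd_card hχ hn))
    · exact hqn (e ▸ hrn)
  rcases subsingleton_or_nontrivial G with h1 | h1
  · infer_instance
  obtain ⟨N, hN, h2, h3⟩ : ∃ N : Subgroup G, N.Normal ∧ N ≠ ⊥ ∧ N ≠ ⊤ := by
    by_contra hc
    push Not at hc
    exact hs ⟨fun N hN => by
      by_cases e : N = ⊥
      · exact Or.inl e
      · exact Or.inr (hc N hN e)⟩
  have := ih N (by simpa using CF.Solv.card_lt_of_lt h3.lt_top) ((degreePrimes_normal N).trans h)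
  have := ih (G ⧸ N) (by
    have h4 := N.card_mul_index
    have h5 : 1 < Nat.card N := (one_lt_card_iff_ne_bot N).2 h2
    have h6 : 0 < N.index := Nat.pos_of_ne_zero index_ne_zero_of_finite
    rw [← index_eq_card]; nlinarith) ((degreePrimes_quotient N).trans h)
  exact CF.Solv.isSolvable_of_normal_of_quotient N

theorem three_primes [Finite G] (hG : ¬ Group.IsSolvable G) : ∃ p q r : ℕ, p ≠ q ∧ q ≠ r ∧ p ≠ r ∧
    p ∈ degreePrimes G ∧ q ∈ degreePrimes G ∧ r ∈ degreePrimes G := by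
  obtain ⟨p, hp, -⟩ := Set.not_subset.1 fun h => hG (isSolvable_of_subset Nat.prime_two
    Nat.prime_two G h)
  obtain ⟨q, hq, hqp⟩ := Set.not_subset.1 fun h => hG (isSolvable_of_subset hp.1 hp.1 G h)
  obtain ⟨r, hr, hrp⟩ := Set.not_subset.1 fun h => hG (isSolvable_of_subset hp.1 hq.1 G h)
  simp only [Set.mem_insert_iff, Set.mem_singleton_iff, not_or] at hqp hrp
  exact ⟨p, q, r, fun e => hqp.1 e.symm, fun e => hrp.2 e.symm, fun e => hrp.1 e.symm, hp, hq, hr⟩

end CF.TwoPr
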