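import Cfsg.Agent.S4456
import Cfsg.Agent.Block.Ito
import Cfsg.Agent.Char.More
import Cfsg.Agent.Transfer.Residual

/-! Groups whose vanishing elements are `p`-elements (Bubboloni–Dolfi–Spiga), without the
classification. -/

set_option autoImplicit false

namespace CF.VanP
open Cfsg CF.Char Subgroup
open scoped commutatorElement Pointwise

universe u

/-- Noncentral elements of a nilpotent group are vanishing. -/
theorem exists_irr_zero_of_nilpotent (G : Type u) [Group G] [Finite G] :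
    Group.IsNilpotent G → ∀ y : G, y ∉ center G → ∃ χ, IsIrrCharacter G χ ∧ χ y = 0 := by
  refine CF.Solv.group_induction (P := fun G _ _ => Group.IsNilpotent G → ∀ y : G, y ∉ center G →
    ∃ χ, IsIrrCharacter G χ ∧ χ y = 0) ?_ G
  intro G _ _ ih hG y hy
  by_cases h : (y : G ⧸ center G) ∈ center (G ⧸ center G)
  · obtain ⟨g, hg⟩ : ∃ g, g * y ≠ y * g := by
      by_contra hc; push Not at hc; exact hy (mem_center_iff.2 hc)
    have hz : ⁅g, y⁆ ∈ center G := by
      rw [← QuotientGroup.eq_one_iff, ← QuotientGroup.mk'_apply, map_commutatorElement,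
        commutatorElement_eq_one_iff_mul_comm]
      exact mem_center_iff.1 h _
    obtain ⟨χ, hχ, hk⟩ := exists_irr_not_mem_charKer
      (fun e => hg (commutatorElement_eq_one_iff_mul_comm.1 e) : ⁅g, y⁆ ≠ 1)
    refine ⟨χ, hχ, ?_⟩
    have h1 := char_mul_of_mem_charCenter (irr_one_ne_zero hχ) (center_le_charCenter hχ hz) y
    have h2 : ⁅g, y⁆ * y = g * y * g⁻¹ := by simp [commutatorElement_def]
    rw [h2, irr_isClassFunction hχ] at h1
    by_contra h0
    apply hk
    rw [mem_charKer_iff (irr_isCharacter hχ), ← div_eq_one_iff_eq (irr_one_ne_zero hχ)]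
    exact mul_right_cancel₀ h0 (by rw [← h1, one_mul])
  · have hnt : Nontrivial G := by
      by_contra hc
      have := not_nontrivial_iff_subsingleton.1 hc
      exact hy (by rw [Subsingleton.elim y 1]; exact one_mem _)
    have hc : center G ≠ ⊥ := Group.IsNilpotent.center_ne_bot G
    obtain ⟨ψ, hψ, h0⟩ := ih (G ⧸ center G) (by
      have h4 := (center G).card_mul_index
      have h5 : 1 < Nat.card (center G) := (one_lt_card_iff_ne_bot _).2 hc
      have h6 : 0 < (center G).index := Nat.pos_of_ne_zero index_ne_zero_of_finite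
      rw [← index_eq_card]; nlinarith) inferInstance _ h
    exact ⟨_, irr_inflate _ hψ, h0⟩

variable {G : Type*} [Group G] [Finite G]

/-- An irreducible character nonzero at `g`: a conjugate of `g` fixes a given constituent. -/
theorem exists_irr_zero_of_inertia (L : Subgroup G) [L.Normal] {θ : L → ℂ}
    (hθ : IsIrrCharacter L θ) {g : G}
    (h : ∀ x : G, x * g * x⁻¹ ∉ (Clifford.NormalEmb.sub L).inertia θ) :
    ∃ χ, IsIrrCharacter G χ ∧ χ g = 0 := by
  have := Fintype.ofFinite G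
  have := Fintype.ofFinite L
  have := Fintype.ofFinite ((Clifford.NormalEmb.sub L).inertia θ)
  obtain ⟨χ, hχ, h1⟩ := CF.Char.exists_irr_over L hθ
  obtain ⟨ψ, -, e, -⟩ := (Clifford.NormalEmb.sub L).exists_ind_inertia hθ hχ h1
  exact ⟨χ, hχ, by rw [← e]; exact indFun_eq_zero_of_not_conj _ ψ h⟩

theorem key {p : ℕ} [Fact p.Prime] {L : Subgroup G} [hL : L.Normal] (hLc : (Nat.card L).Coprime p)
    {k : ℕ} (hk : L.index = p ^ k) {P : Subgroup G} (hP : IsPGroup p P) {y l : G} (hy : y ∈ P)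
    (hl : l ∈ L) (hnv : ∀ χ, IsIrrCharacter G χ → χ (l * y) ≠ 0) :
    (∀ x ∈ P, x * y = y * x) ∧ ∀ u ∈ L, u * y = y * u := by
  have hp : p.Prime := Fact.out
  have hQ : IsPGroup p (G ⧸ L) := IsPGroup.of_card hk
  have h1 : ∀ x : G, ⁅x, y⁆ ∈ L := by
    intro x
    have : (y : G ⧸ L) ∈ center (G ⧸ L) := by
      by_contra hc
      obtain ⟨ψ, hψ, h0⟩ := exists_irr_zero_of_nilpotent (G ⧸ L) hQ.isNilpotent _ hc
      refine hnv _ (irr_inflate _ hψ) ?_
      simp only [QuotientGroup.mk_mul, (QuotientGroup.eq_one_iff l).2 hl, one_mul, h0]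
    rw [← QuotientGroup.eq_one_iff, ← QuotientGroup.mk'_apply, map_commutatorElement,
      commutatorElement_eq_one_iff_mul_comm]
    exact mem_center_iff.1 this _
  refine ⟨fun x hx => commutatorElement_eq_one_iff_mul_comm.1
    (Transfer.eq_one_of_mem_pGroup_of_coprime hP
      (commutator_le_self P (commutator_mem_commutator hx hy))
      (Transfer.coprime_orderOf_of_mem hLc (h1 x))), ?_⟩
  have h2 : ∀ θ, IsIrrCharacter L θ → y ∈ (Clifford.NormalEmb.sub L).inertia θ := by
    intro θ hθ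
    by_contra hc
    obtain ⟨χ, hχ, h0⟩ := exists_irr_zero_of_inertia L hθ (g := l * y) fun x hx => hc (by
      have hLT : ∀ n ∈ L, n ∈ (Clifford.NormalEmb.sub L).inertia θ := fun n hn =>
        (Clifford.NormalEmb.sub L).ι_mem_inertia (irr_isClassFunction hθ) ⟨n, hn⟩
      have h3 := mul_mem (inv_mem (hLT _ (L.mul_mem (hL.conj_mem l hl x) (h1 x)))) hx
      have h4 : (x * l * x⁻¹ * ⁅x, y⁆)⁻¹ * (x * (l * y) * x⁻¹) = y := by
        simp only [commutatorElement_def]; group
      rwa [h4] at h3)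
    exact hnv χ hχ h0
  have h3 := CF.Block.le_centralizer_of_fix_classes (Q := zpowers y) (K := L)
    (hP.to_le (zpowers_le.2 hy)) le_normalizer_of_normal
    ((Nat.Prime.coprime_iff_not_dvd hp).1 hLc.symm) (by
      intro a ha x hx
      have : IsConj (⟨x, hx⟩ : L) ⟨a * x * a⁻¹, hL.conj_mem x hx a⟩ := by
        rw [isConj_iff_irr_eq]
        intro θ
        exact (((Clifford.NormalEmb.sub L).mem_inertia').1 (zpowers_le.2 (h2 θ θ.2) ha)
          ⟨x, hx⟩).symm
      obtain ⟨c, hc⟩ := isConj_iff.1 this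
      exact ⟨c, c.2, congrArg Subtype.val hc⟩)
  exact fun u hu => mem_centralizer_iff.1 (h3 (mem_zpowers y)) u hu

theorem main (hna : ¬ IsMulCommutative G) (p : ℕ) [Fact p.Prime]
    (hvan : ∀ g : G, (∃ χ : IrrCharacter G, (χ : G → ℂ) g = 0) →
      ∃ m : ℕ, 1 ≤ m ∧ orderOf g = p ^ m) :
    IsPGroup p G ∨ (center G = pCore p G ∧
      ∃ H : Subgroup (G ⧸ center G), IsFrobeniusComplement H ∧ IsPGroup p H) := by
  have hp : p.Prime := Fact.out
  obtain ⟨L, hL, hLc, k, hk⟩ := Cfsg.Agent.S4456.result (G := G) p hp (by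
    intro χ h1
    obtain ⟨n, -, hn⟩ := irr_one_eq_nat χ.2
    have e : charDegree (χ : G → ℂ) = n := by simp [charDegree, hn]
    rw [e] at h1 ⊢
    obtain ⟨g, hg⟩ := exists_irr_eq_zero χ.2 (by rw [hn]; exact_mod_cast h1)
    obtain ⟨m, -, hm⟩ := hvan g ⟨χ, hg⟩
    have := gen_modEq_one (gen_of_char (irr_isCharacter χ.2)) hp (k := m) (g := g)
      (hm ▸ pow_orderOf_eq_one g) (a := 0) (b := n) (by simpa using hg) (by simpa using hn)
    exact Int.natCast_dvd_natCast.1 (by simpa using this.dvd))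
  by_cases hG : IsPGroup p G
  · exact Or.inl hG
  right
  obtain ⟨P⟩ : Nonempty (Sylow p G) := inferInstance
  have hP : IsPGroup p (P : Subgroup G) := P.isPGroup'
  have hcomp := Transfer.isComplement'_sylow_of_coprime_of_index hLc hk P
  have hdec : ∀ g : G, ∃ l ∈ L, ∃ x ∈ (P : Subgroup G), l * x = g := fun g =>
    mem_sup_of_normal_left.1 (hcomp.sup_eq_top.ge (mem_top g))
  have hLP : ∀ u ∈ L, u ∈ (P : Subgroup G) → u = 1 := fun u hu hu' =>
    Transfer.eq_one_of_mem_pGroup_of_coprime hP hu' (Transfer.coprime_orderOf_of_mem hLc hu)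
  have K : ∀ y ∈ (P : Subgroup G), ∀ l ∈ L, l ≠ 1 → l * y = y * l → y ∈ center G := by
    intro y hy l hl hl1 hc
    obtain ⟨h1, h2⟩ := key hLc hk hP hy hl (fun χ hχ h0 => by
      obtain ⟨m, -, hm⟩ := hvan _ ⟨⟨χ, hχ⟩, h0⟩
      obtain ⟨j, hj⟩ := hP ⟨y, hy⟩
      have hj' : y ^ p ^ j = 1 := congrArg Subtype.val hj
      have h3 : (l * y) ^ p ^ (m + j) = 1 := by
        rw [pow_add, pow_mul, ← hm, pow_orderOf_eq_one, one_pow]
      rw [(show Commute l y from hc).mul_pow, add_comm m j, pow_add, pow_mul y, hj', one_pow,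
        mul_one, ← pow_add] at h3
      obtain ⟨i, -, hi⟩ := (Nat.dvd_prime_pow hp).1 (orderOf_dvd_of_pow_eq_one h3)
      exact hl1 (Transfer.eq_one_of_pElt_of_coprime hi (Transfer.coprime_orderOf_of_mem hLc hl)))
    rw [mem_center_iff]
    intro g
    obtain ⟨u, hu, x, hx, rfl⟩ := hdec g
    rw [mul_assoc, h1 x hx, ← mul_assoc, h2 u hu, mul_assoc]
  obtain ⟨l0, hl0, hl1⟩ : ∃ l ∈ L, l ≠ 1 := by
    by_contra hc
    push Not at hc
    refine hG fun g => ?_
    obtain ⟨u, hu, x, hx, rfl⟩ := hdec g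
    obtain ⟨j, hj⟩ := hP ⟨x, hx⟩
    exact ⟨j, by rw [hc u hu, one_mul]; exact congrArg Subtype.val hj⟩
  have hPZ : ¬ (P : Subgroup G) ≤ center G := by
    intro h
    obtain ⟨a, b, hab⟩ : ∃ a b : G, a * b ≠ b * a := by
      by_contra hc; push Not at hc; exact hna ⟨⟨hc⟩⟩
    obtain ⟨χ, hχ, hk⟩ := exists_irr_not_mem_charKer
      (fun e => hab (commutatorElement_eq_one_iff_mul_comm.1 e) : ⁅a, b⁆ ≠ 1)
    obtain ⟨g, hg⟩ := exists_irr_eq_zero hχ fun e => hk ((irr_one_eq_one_iff hχ).1 e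
      (commutator_mem_commutator (mem_top a) (mem_top b)))
    obtain ⟨m, -, hm⟩ := hvan g ⟨⟨χ, hχ⟩, hg⟩
    have : (P : Subgroup G).Normal := ⟨fun n hn x => by
      rw [mem_center_iff.1 (h hn) x, mul_inv_cancel_right]; exact hn⟩
    have h1 : zpowers g ≤ (P : Subgroup G) := by
      obtain ⟨Q, hQ⟩ := (IsPGroup.of_card (G := zpowers g) (p := p) (n := m)
        (by rw [Nat.card_zpowers, hm])).exists_le_sylow
      have := P.unique_of_normal this
      rwa [Subsingleton.elim Q P] at hQ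
    have h2 := (mem_charCenter_iff (irr_isCharacter hχ)).1
      (center_le_charCenter hχ (h (h1 (mem_zpowers g))))
    rw [hg, norm_zero, eq_comm, norm_eq_zero] at h2
    exact irr_one_ne_zero hχ h2
  have hZp : IsPGroup p (center G) := by
    refine Transfer.isPGroup_of_forall_coprime fun z hz => ?_
    by_contra hz1
    have hzL : (z : G) ∈ L := Transfer.pResidual_le_of_index hk
      (Transfer.mem_pResidual_of_coprime (by rw [Subgroup.orderOf_coe]; exact hz))
    exact hPZ fun y hy => K y hy z hzL (fun e => hz1 (Subtype.ext e))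
      (mem_center_iff.1 z.2 y).symm
  have hZP : center G ≤ (P : Subgroup G) := hZp.le_sylow_of_normal P
  refine ⟨le_antisymm (Solv.le_pCore hZp) fun y hy => K y (Solv.pCore_le_sylow P hy) l0 hl0 hl1 ?_,
    (P : Subgroup G).map (QuotientGroup.mk' _), ⟨fun e => hPZ ?_, fun e => hG ?_, ?_⟩,
    hP.map _⟩
  · rw [← commutatorElement_eq_one_iff_mul_comm]
    refine hLP _ (commutator_le_left L ⊤ (commutator_mem_commutator hl0 (mem_top y)))
      (Solv.pCore_le_sylow P (commutator_le_right ⊤ (pCore p G)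
        (commutator_mem_commutator (mem_top l0) hy)))
  · rwa [Subgroup.map_eq_bot_iff, QuotientGroup.ker_mk'] at e
  · have : (P : Subgroup G) = ⊤ := by
      have h1 := congrArg (comap (QuotientGroup.mk' (center G))) e
      rwa [comap_map_eq, QuotientGroup.ker_mk', sup_eq_left.2 hZP, comap_top] at h1
    exact (this ▸ hP : IsPGroup p (⊤ : Subgroup G)).of_equiv topEquiv
  · intro g hg
    obtain ⟨g, rfl⟩ := QuotientGroup.mk'_surjective _ g
    obtain ⟨l, hl, x, hx, rfl⟩ := hdec g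
    have hl1 : l ≠ 1 := fun e => hg ⟨x, hx, by rw [e, one_mul]⟩
    rw [eq_bot_iff]
    rintro _ ⟨⟨y, hy, rfl⟩, h2⟩
    obtain ⟨_, ⟨w, hw, rfl⟩, e⟩ := (mem_smul_pointwise_iff_exists _ _ _).1 h2
    rw [MulAut.smul_def, MulAut.conj_apply, ← map_inv, ← map_mul, ← map_mul] at e
    have hw' : x * w * x⁻¹ ∈ (P : Subgroup G) := mul_mem (mul_mem hx hw) (inv_mem hx)
    have h3 : l * (x * w * x⁻¹) * l⁻¹ ∈ (P : Subgroup G) := by
      have h4 := hZP (QuotientGroup.eq.1 e)
      have h5 := inv_mem (mul_mem h4 (inv_mem hy))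
      have h6 : ((l * x * w * (l * x)⁻¹)⁻¹ * y * y⁻¹)⁻¹ = l * (x * w * x⁻¹) * l⁻¹ := by group
      rwa [h6] at h5
    have h4 := K _ hw' l hl hl1 (commutatorElement_eq_one_iff_mul_comm.1 (hLP _
      (commutator_le_left L ⊤ (commutator_mem_commutator hl (mem_top _)))
      (mul_mem h3 (inv_mem hw'))))
    rw [mem_bot, ← e, QuotientGroup.mk'_apply, QuotientGroup.eq_one_iff]
    have h6 : l * x * w * (l * x)⁻¹ = l * (x * w * x⁻¹) * l⁻¹ := by group
    rw [h6]
    exact (inferInstance : (center G).Normal).conj_mem _ h4 l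

end CF.VanP
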